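import Cfsg.Agent.H721.SR.Base
import Cfsg.Agent.CpAutON.Gen
import Cfsg.Agent.H845.HNNineteen

/-!
# TEAM SR: `HN` has non-real elements (order 19) (task 3869, helper560)

`nrel_of_sylow` : `x` of prime order `r`, `r² ∤ |G|`, `C(x) = ⟨x⟩`, `|G| / r` odd modulo `r`: `x` is not real.
-/

set_option autoImplicit false

namespace Cfsg.Agent.H560.SRSyl

open Subgroup Cfsg.Agent.H721.SR

/-- `C(x) = ⟨x⟩` of prime order `r`, `r² ∤ |G|` and `|G| / r` odd modulo `r`: then `x` is not real. -/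
theorem nrel_of_sylow {G : Type*} [Group G] [Finite G] {r N e : ℕ} (hr : r.Prime) (hr2 : r ≠ 2)
    (hG : Nat.card G = r * N) (hN : N % r = e) (he : ¬ 2 ∣ e) (he0 : ¬ r ∣ N) {x : G} (hx : orderOf x = r)
    (hc : Nat.card (centralizer ({x} : Set G)) = r) : NRel G := by
  have hF : Fact r.Prime := ⟨hr⟩
  have h2 : ¬ r ^ 2 ∣ Nat.card G := by
    rw [hG, pow_two]
    intro h
    exact he0 (Nat.dvd_of_mul_dvd_mul_left hr.pos h)
  obtain ⟨n, hn, hcard⟩ := CpAutON.Gen.card_eq h2 hx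
  set φ := (zpowers x).normalizerMonoidHom with hφ
  have hdvd : Nat.card ↥φ.range ∣ r - 1 := by
    rw [← CpAutON.Gen.card_mulAut hx]
    exact card_subgroup_dvd_card _
  have hle : Nat.card ↥φ.range < r := by
    have := Nat.le_of_dvd (by have := hr.two_le; omega) hdvd
    have := hr.two_le
    omega
  rw [hG, hc] at hcard
  have h3 : N = n * Nat.card ↥φ.range := by
    have h4 : r * N = r * (n * Nat.card ↥φ.range) := by rw [hcard]; ring
    exact Nat.eq_of_mul_eq_mul_left hr.pos h4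
  have h5 : Nat.card ↥φ.range = e := by
    rw [← hN, h3, Nat.mul_mod, hn, one_mul, Nat.mod_mod, Nat.mod_eq_of_lt hle]
  refine ⟨x, fun hreal => he ?_⟩
  obtain ⟨h, hh⟩ := isConj_iff.1 hreal
  have hmem : h ∈ normalizer ((zpowers x : Subgroup G) : Set G) := by
    rw [mem_normalizer_iff]
    intro y
    have hconj : ∀ g : G, g * x * g⁻¹ = x⁻¹ → ∀ y ∈ zpowers x, g * y * g⁻¹ ∈ zpowers x := by
      rintro g hg y ⟨k, rfl⟩
      refine ⟨-k, ?_⟩
      show x ^ (-k) = g * x ^ k * g⁻¹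
      rw [← conj_zpow, hg, inv_zpow, zpow_neg]
    have hinv : h⁻¹ * x * h⁻¹⁻¹ = x⁻¹ := by
      rw [inv_inv, ← inv_inj, mul_inv_rev, mul_inv_rev, inv_inv, inv_inv, ← hh]
      group
    constructor
    · exact hconj h hh y
    · intro hy
      have := hconj h⁻¹ hinv _ hy
      have h6 : h⁻¹ * (h * y * h⁻¹) * h⁻¹⁻¹ = y := by group
      rwa [h6] at this
  set f := φ ⟨h, hmem⟩ with hf
  have hfx : ∀ y : zpowers x, ((f y : zpowers x) : G) = h * y * h⁻¹ := fun y => rfl
  have hfinv : ∀ y : zpowers x, f y = y⁻¹ := by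
    rintro ⟨y, k, rfl⟩
    apply Subtype.ext
    rw [hfx]
    show h * x ^ k * h⁻¹ = (x ^ k)⁻¹
    rw [← conj_zpow, hh, inv_zpow]
  have hf2 : f ^ 2 = 1 := by
    apply MulEquiv.ext
    intro y
    rw [pow_two, MulAut.mul_apply, hfinv, hfinv, inv_inv, MulAut.one_apply]
  have hf1 : f ≠ 1 := by
    intro hf1
    have h7 := hfinv ⟨x, mem_zpowers x⟩
    rw [hf1, MulAut.one_apply] at h7
    have h8 : x = x⁻¹ := congrArg Subtype.val h7
    have h9 : x ^ 2 = 1 := by
      rw [pow_two]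
      nth_rewrite 1 [h8]
      exact inv_mul_cancel x
    have h10 := orderOf_dvd_of_pow_eq_one h9
    rw [hx] at h10
    exact hr2 ((Nat.prime_dvd_prime_iff_eq hr Nat.prime_two).1 h10)
  have hord : orderOf f = 2 := orderOf_eq_prime hf2 hf1
  rw [← h5, ← hord]
  have h11 : f ∈ φ.range := ⟨_, hf.symm⟩
  have h12 := orderOf_dvd_natCard (⟨f, h11⟩ : φ.range)
  rwa [Subgroup.orderOf_mk] at h12

end Cfsg.Agent.H560.SRSyl

namespace Cfsg.Agent.H560.SRHN

open Subgroup Cfsg.Agent.H721.SR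

theorem nrel_model : NRel Cfsg.Spor.HN := by
  have hfin := Cfsg.Agent.H845.HNNineteen.finite_HN
  obtain ⟨x, hx, hc⟩ := Cfsg.Agent.H845.HNNineteen.hn_nineteen
  refine SRSyl.nrel_of_sylow (r := 19) (N := 14370048000000) (e := 14370048000000 % 19) (by norm_num) (by norm_num)
    ?_ rfl (by norm_num) (by norm_num) hx hc
  have := Cfsg.Agent.S1701.result.2
  rw [this]

/-- **`HN` has an element which is not conjugate to its inverse.** -/
theorem nrel_hn {S : Type*} [Group S] (h : Cfsg.Spor.IsoHN S) : NRel S := by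
  obtain ⟨e⟩ := h
  exact nrel_model.congr e.symm

/-- **The row `HN` of S4971.** -/
theorem rr_hn {S : Type*} [Group S] (h : Cfsg.Spor.IsoHN S) : RR S := RR.of_nrel (nrel_hn h)

end Cfsg.Agent.H560.SRHN
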