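import Cfsg.Agent.H560.SRHN
import Cfsg.Agent.H680.ONThirtyOne

/-!
# TEAM SR: the O'Nan group has non-real elements (order 31) (task 3869, helper560)
-/

set_option autoImplicit false

namespace Cfsg.Agent.H560.SRON

open Subgroup Cfsg.Agent.H721.SR

theorem nrel_model : NRel Cfsg.Spor.ON := by
  have hfin := Cfsg.Agent.KFacts.ON.Cent.finite_ON
  have h31 : Fact (Nat.Prime 31) := ⟨by norm_num⟩
  obtain ⟨x, hx⟩ := exists_prime_orderOf_dvd_card' (G := Cfsg.Spor.ON) 31 (by
    rw [Cfsg.Agent.H474.ONC.card_ON]; norm_num)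
  refine SRSyl.nrel_of_sylow (r := 31) (N := 14865016320) (e := 14865016320 % 31) (by norm_num) (by norm_num)
    ?_ rfl (by norm_num) (by norm_num) hx (Cfsg.Agent.H680.ONThirtyOne.card_cent hx)
  rw [Cfsg.Agent.H474.ONC.card_ON]

/-- **`O'N` has an element which is not conjugate to its inverse.** -/
theorem nrel_on {S : Type*} [Group S] (h : Cfsg.Spor.IsoON S) : NRel S := by
  obtain ⟨e⟩ := h
  exact nrel_model.congr e.symm

/-- **The row `O'N` of S4971.** -/
theorem rr_on {S : Type*} [Group S] (h : Cfsg.Spor.IsoON S) : RR S := RR.of_nrel (nrel_on h)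

end Cfsg.Agent.H560.SRON
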