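import Mathlib
import Cfsg.Agent.H102.PslAct
import Cfsg.Agent.H102.RankOneSol
import Cfsg.Agent.SignalizersComponents.CoprimeBasic

/-!
# `PSL(2, q)`, `q ≡ 3 mod 8` a power of three: elements and their centralizers
-/

set_option autoImplicit false
set_option linter.unusedSectionVars false
set_option linter.style.haveILetI false

namespace Cfsg.Agent.H560.Sol3

open Matrix OnePoint MulAction
open Cfsg.Agent.OddCyclic.Zass
open Cfsg.Agent.H102.PslAct
open Cfsg.Agent.H102.RankOneSol (Free Fix1 Fix2 exists_normal_abelian)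

attribute [local instance] act

variable {F : Type*} [Field F] [DecidableEq F] [Fintype F]

/-- the numerical hypotheses on `q` -/
structure Q3 (F : Type*) [Field F] [Fintype F] : Prop where
  three : (3 : F) = 0
  dvd : 3 ∣ Fintype.card F
  mod : Fintype.card F % 8 = 3
  gt : 3 < Fintype.card F

variable (Q : Q3 F)

section basic

theorem fix_cases {g : PSL F} (hg : g ≠ 1) :
    Free (OnePoint F) g ∨ (∃ a : OnePoint F, Fix1 g a) ∨
      (∃ a b : OnePoint F, a ≠ b ∧ Fix2 g a b) := by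
  by_cases hf : Free (OnePoint F) g
  · exact Or.inl hf
  · right
    unfold Free at hf
    push Not at hf
    obtain ⟨a, ha⟩ := hf
    by_cases h1 : ∀ x : OnePoint F, g • x = x → x = a
    · exact Or.inl ⟨a, fun x => ⟨h1 x, fun h => h ▸ ha⟩⟩
    · push Not at h1
      obtain ⟨b, hb, hba⟩ := h1
      refine Or.inr ⟨a, b, Ne.symm hba, fun x => ⟨fun hx => ?_, ?_⟩⟩
      · by_contra hcon
        push Not at hcon
        exact hg (three (Ne.symm hba) (Ne.symm hcon.1) (Ne.symm hcon.2) ha hb hx)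
      · rintro (rfl | rfl)
        · exact ha
        · exact hb

theorem mk_neg (A B : SpecialLinearGroup (Fin 2) F) (h00 : A 0 0 = - B 0 0)
    (h01 : A 0 1 = - B 0 1) (h10 : A 1 0 = - B 1 0) (h11 : A 1 1 = - B 1 1) :
    (QuotientGroup.mk A : PSL F) = QuotientGroup.mk B := by
  have hAB : A = -B := by
    apply ext2
    · rw [h00]; simp
    · rw [h01]; simp
    · rw [h10]; simp
    · rw [h11]; simp
  apply QuotientGroup.eq.2
  have h1 : A⁻¹ * B = -1 := by
    rw [hAB]
    have : (-B)⁻¹ * B = -1 := by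
      rw [inv_mul_eq_iff_eq_mul]
      simp
    exact this
  rw [h1]
  rw [Subgroup.mem_center_iff]
  intro g
  simp

/-- two matrices with the same image differ by a sign -/
theorem eq_or_neg {A B : SpecialLinearGroup (Fin 2) F}
    (h : (QuotientGroup.mk A : PSL F) = QuotientGroup.mk B) :
    (A = B) ∨ (A 0 0 = - B 0 0 ∧ A 0 1 = - B 0 1 ∧ A 1 0 = - B 1 0 ∧ A 1 1 = - B 1 1) := by
  have h1 : A⁻¹ * B ∈ Subgroup.center (SpecialLinearGroup (Fin 2) F) := QuotientGroup.eq.1 h
  rw [Matrix.SpecialLinearGroup.mem_center_iff] at h1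
  obtain ⟨r, hr, hs⟩ := h1
  have hB : B = A * (A⁻¹ * B) := by group
  have h00 : (A⁻¹ * B) 0 0 = r := by rw [← hs]; simp
  have h01 : (A⁻¹ * B) 0 1 = 0 := by rw [← hs]; simp
  have h10 : (A⁻¹ * B) 1 0 = 0 := by rw [← hs]; simp
  have h11 : (A⁻¹ * B) 1 1 = r := by rw [← hs]; simp
  have e00 : B 0 0 = A 0 0 * r := by
    rw [hB, mul00, h00, h10]; ring
  have e01 : B 0 1 = A 0 1 * r := by
    rw [hB, mul01, h01, h11]; ring
  have e10 : B 1 0 = A 1 0 * r := by
    rw [hB, mul10, h00, h10]; ring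
  have e11 : B 1 1 = A 1 1 * r := by
    rw [hB, mul11, h01, h11]; ring
  have hr2 : r * r = 1 := by
    have : r ^ 2 = 1 := by simpa using hr
    rw [← this]; ring
  rcases mul_self_eq_one_iff.1 hr2 with h | h
  · left
    apply ext2
    · rw [e00, h, mul_one]
    · rw [e01, h, mul_one]
    · rw [e10, h, mul_one]
    · rw [e11, h, mul_one]
  · right
    refine ⟨?_, ?_, ?_, ?_⟩
    · rw [e00, h]; ring
    · rw [e01, h]; ring
    · rw [e10, h]; ring
    · rw [e11, h]; ring

/-- an element interchanging two points is an involution -/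
theorem swap_sq {g : PSL F} {a b : OnePoint F} (hab : a ≠ b) (h1 : g • a = b) (h2 : g • b = a) :
    g * g = 1 := by
  obtain ⟨w, hw1, hw2⟩ := exists_pair hab
  have e1 : (w⁻¹ * g * w) • (∞ : OnePoint F) = ((0 : F) : OnePoint F) := by
    rw [mul_smul, mul_smul, hw1, h1, ← hw2, inv_smul_smul]
  have e2 : (w⁻¹ * g * w) • ((0 : F) : OnePoint F) = (∞ : OnePoint F) := by
    rw [mul_smul, mul_smul, hw2, h2, ← hw1, inv_smul_smul]
  obtain ⟨A, hA⟩ := QuotientGroup.mk_surjective (w⁻¹ * g * w)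
  rw [← hA, mk_smul] at e1 e2
  have hd := det_eq A
  have h11 : A 1 1 = 0 := by
    rw [smul_coe'] at e2
    by_contra hne
    rw [mul_zero, zero_add, if_neg hne] at e2
    exact OnePoint.coe_ne_infty _ e2
  have h10 : A 1 0 ≠ 0 := by
    intro h
    rw [h, h11] at hd
    simp at hd
  have h00 : A 0 0 = 0 := by
    rw [smul_infty', if_neg h10, OnePoint.coe_eq_coe] at e1
    rcases div_eq_zero_iff.1 e1 with h | h
    · exact h
    · exact absurd h h10
  rw [h00, h11] at hd
  have e3 : (QuotientGroup.mk A : PSL F) * QuotientGroup.mk A = 1 := by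
    rw [← QuotientGroup.mk_mul]
    have : (1 : PSL F) = QuotientGroup.mk 1 := rfl
    rw [this]
    apply mk_neg
    · rw [mul00, h00]; simp; linear_combination -hd
    · rw [mul01, h00, h11]; simp
    · rw [mul10, h00, h11]; simp
    · rw [mul11, h11]; simp; linear_combination -hd
  rw [hA] at e3
  calc g * g = w * ((w⁻¹ * g * w) * (w⁻¹ * g * w)) * w⁻¹ := by group
    _ = 1 := by rw [e3]; group

/-- elements fixing two points -/
theorem ord_two (hO : Ord F ((Fintype.card F + 1) / 2) ((Fintype.card F - 1) / 2)) {g : PSL F}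
    {a b : OnePoint F} (hab : a ≠ b) (ha : g • a = a) (hb : g • b = b) :
    orderOf g ∣ (Fintype.card F - 1) / 2 := by
  haveI := finite_psl F
  rw [← card_two hO.card2 hab]
  have hmem : g ∈ (stabilizer (PSL F) a ⊓ stabilizer (PSL F) b : Subgroup (PSL F)) := ⟨ha, hb⟩
  have := orderOf_dvd_natCard (⟨g, hmem⟩ : (stabilizer (PSL F) a ⊓ stabilizer (PSL F) b : Subgroup (PSL F)))
  rwa [Subgroup.orderOf_mk] at this

/-- an element fixing only `∞` is a transvection -/
theorem exists_up {x : PSL F} (hx : Fix1 x (∞ : OnePoint F)) :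
    ∃ t : F, t ≠ 0 ∧ x = QuotientGroup.mk (up t) := by
  obtain ⟨A, hA10, rfl⟩ := exists_mk_of_infty ((hx ∞).2 rfl)
  have hd := det_eq A
  rw [hA10, mul_zero, sub_zero] at hd
  have h11 : A 1 1 ≠ 0 := fun h' => by rw [h', mul_zero] at hd; exact zero_ne_one hd
  have heq : A 0 0 = A 1 1 := by
    by_contra hne
    have hne' : A 1 1 - A 0 0 ≠ 0 := fun h => hne (sub_eq_zero.1 h).symm
    have h1 : (QuotientGroup.mk A : PSL F) • (((A 0 1 / (A 1 1 - A 0 0) : F)) : OnePoint F) =
        ((A 0 1 / (A 1 1 - A 0 0) : F) : OnePoint F) := by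
      rw [mk_smul, smul_coe', hA10, zero_mul, zero_add, if_neg h11, OnePoint.coe_eq_coe]
      field_simp
      ring
    exact OnePoint.coe_ne_infty _ ((hx _).1 h1)
  rw [← heq] at hd
  have hneg : A 0 0 = 1 ∨ A 0 0 = -1 := mul_self_eq_one_iff.1 hd
  have key : ∃ t : F, (QuotientGroup.mk A : PSL F) = QuotientGroup.mk (up t) := by
    rcases hneg with h | h
    · refine ⟨A 0 1, ?_⟩
      congr 1
      apply ext2
      · rw [h]; simp [up]
      · simp [up]
      · rw [hA10]; simp [up]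
      · rw [← heq, h]; simp [up]
    · refine ⟨- A 0 1, mk_neg _ _ ?_ ?_ ?_ ?_⟩
      · rw [h]; simp [up]
      · simp [up]
      · rw [hA10]; simp [up]
      · rw [← heq, h]; simp [up]
  obtain ⟨t, ht⟩ := key
  refine ⟨t, ?_, ht⟩
  rintro rfl
  have h1 : (QuotientGroup.mk A : PSL F) • ((0 : F) : OnePoint F) = ((0 : F) : OnePoint F) := by
    rw [ht, mk_smul, up_smul, add_zero]
  exact OnePoint.coe_ne_infty _ ((hx _).1 h1)

theorem fix1_conj {x : PSL F} {a : OnePoint F} (hx : Fix1 x a) (w : PSL F) :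
    Fix1 (w * x * w⁻¹) (w • a) := by
  intro y
  rw [mul_smul, mul_smul]
  constructor
  · intro h
    have h1 : x • (w⁻¹ • y) = w⁻¹ • y := by rw [eq_inv_smul_iff]; exact h
    rw [← (hx _).1 h1, smul_inv_smul]
  · rintro rfl
    rw [inv_smul_smul, (hx a).2 rfl]

theorem fix1_cube (h3 : (3 : F) = 0) {x : PSL F} {a : OnePoint F} (hx : Fix1 x a) : x ^ 3 = 1 := by
  obtain ⟨w, hw⟩ := exists_smul_infty a
  have h1 := fix1_conj hx w⁻¹
  rw [← hw, inv_smul_smul, inv_inv] at h1
  obtain ⟨t, -, ht⟩ := exists_up h1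
  have h2 : (w⁻¹ * x * w) ^ 3 = 1 := by
    rw [ht, pow_three, ← QuotientGroup.mk_mul, ← QuotientGroup.mk_mul, up_mul, up_mul]
    have : t + (t + t) = 0 := by linear_combination t * h3
    rw [this]
    have : up (0 : F) = 1 := by
      apply ext2 <;> simp [up]
    rw [this]
    rfl
  have h4 : x ^ 3 = w * (w⁻¹ * x * w) ^ 3 * w⁻¹ := by
    simp only [pow_three]
    group
  rw [h4, h2]
  group

theorem fix1_ne_one {x : PSL F} {a : OnePoint F} (hx : Fix1 x a) : x ≠ 1 := by
  rintro rfl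
  have : ∃ b : OnePoint F, b ≠ a := by
    by_cases h : a = ∞
    · exact ⟨((0 : F) : OnePoint F), fun h' => OnePoint.coe_ne_infty _ (h'.trans h)⟩
    · exact ⟨∞, Ne.symm h⟩
  obtain ⟨b, hb⟩ := this
  exact hb ((hx b).1 (one_smul _ _))

theorem fix2_ne_one {x : PSL F} {a b : OnePoint F} (hx : Fix2 x a b) (hF : 1 < Fintype.card F) :
    x ≠ 1 := by
  rintro rfl
  have h1 : ∀ c : OnePoint F, c = a ∨ c = b := fun c => (hx c).1 (one_smul _ _)
  have h2 : Nat.card (OnePoint F) ≤ 2 := by
    have : (Set.univ : Set (OnePoint F)) ⊆ {a, b} := fun c _ => h1 c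
    have h3 := Set.ncard_le_ncard this (Set.toFinite _)
    rw [Set.ncard_univ] at h3
    exact h3.trans (Set.ncard_insert_le _ _ |>.trans (by simp))
  rw [card_onePoint] at h2
  omega

end basic

section num

include Q

theorem Q3.hO : Ord F ((Fintype.card F + 1) / 2) ((Fintype.card F - 1) / 2) := by
  apply ord_odd
  rw [Nat.odd_iff]
  have := Q.mod
  omega

theorem Q3.d_odd : Odd ((Fintype.card F - 1) / 2) := by
  rw [Nat.odd_iff]
  have := Q.mod
  omega

theorem Q3.m_mod : ((Fintype.card F + 1) / 2) % 4 = 2 := by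
  have := Q.mod
  omega

theorem Q3.not_three_dvd_d : ¬ 3 ∣ (Fintype.card F - 1) / 2 := by
  have := Q.mod
  have := Q.dvd
  omega

theorem Q3.not_three_dvd_m : ¬ 3 ∣ (Fintype.card F + 1) / 2 := by
  have := Q.mod
  have := Q.dvd
  omega

theorem odd_of_two {g : PSL F} {a b : OnePoint F} (hab : a ≠ b) (ha : g • a = a) (hb : g • b = b) :
    Odd (orderOf g) :=
  Odd.of_dvd_nat Q.d_odd (ord_two Q.hO hab ha hb)

theorem ord_free {g : PSL F} (hg : Free (OnePoint F) g) : orderOf g ∣ (Fintype.card F + 1) / 2 := by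
  haveI := finite_psl F
  obtain ⟨a, s, T, h⟩ := exists_tor_of_free Q.hO hg
  have := orderOf_dvd_natCard (⟨g, h⟩ : Subgroup.zpowers a)
  rwa [Subgroup.orderOf_mk, Nat.card_zpowers, T.ord] at this

theorem fix1_ord {x : PSL F} {a : OnePoint F} (hx : Fix1 x a) : orderOf x = 3 :=
  orderOf_eq_prime (fix1_cube Q.three hx) (fix1_ne_one hx)

theorem fix1_of_ord {x : PSL F} (hx : orderOf x = 3) : ∃ a : OnePoint F, Fix1 x a := by
  have h1 : x ≠ 1 := by
    rintro rfl
    rw [orderOf_one] at hx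
    omega
  rcases fix_cases h1 with h | h | ⟨a, b, hab, h⟩
  · have := ord_free Q h
    rw [hx] at this
    exact absurd this Q.not_three_dvd_m
  · exact h
  · have := ord_two Q.hO hab ((h a).2 (Or.inl rfl)) ((h b).2 (Or.inr rfl))
    rw [hx] at this
    exact absurd this Q.not_three_dvd_d

theorem free_of_ord_two {x : PSL F} (h1 : x ≠ 1) (h2 : x * x = 1) : Free (OnePoint F) x := by
  have ho : orderOf x = 2 := orderOf_eq_prime (by rw [sq, h2]) h1
  rcases fix_cases h1 with h | ⟨a, h⟩ | ⟨a, b, hab, h⟩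
  · exact h
  · have := fix1_ord Q h
    omega
  · have := odd_of_two Q hab ((h a).2 (Or.inl rfl)) ((h b).2 (Or.inr rfl))
    rw [ho] at this
    exact absurd this (by decide)

end num

section tor

variable {a s : PSL F}

theorem mem_tor_comm {x y : PSL F} (hx : x ∈ Subgroup.zpowers a) (hy : y ∈ Subgroup.zpowers a) :
    x * y = y * x := by
  obtain ⟨k, rfl⟩ := hx
  obtain ⟨j, rfl⟩ := hy
  change a ^ k * a ^ j = a ^ j * a ^ k
  rw [← _root_.zpow_add, ← _root_.zpow_add, add_comm]

/-- elements of the normalizer outside the torus -/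
theorem tor_out {m : ℕ} (T : Tor a s m) (hm : 2 ≤ m) {g : PSL F}
    (hg : g ∈ Subgroup.normalizer (Subgroup.zpowers a : Set (PSL F)))
    (hn : g ∉ Subgroup.zpowers a) :
    g * g = 1 ∧ ∀ t ∈ Subgroup.zpowers a, g * t * g⁻¹ = t⁻¹ := by
  have h1 : g * s ∈ Subgroup.zpowers a := by
    rcases (T.mem_normalizer_iff hm).1 hg with h | h
    · exact absurd h hn
    · exact h
  set u := g * s with hu
  have hgu : g = u * s := by rw [hu, mul_assoc, T.ss, mul_one]
  have h2 : ∀ t ∈ Subgroup.zpowers a, g * t * g⁻¹ = t⁻¹ := by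
    intro t ht
    have h3 := T.conj_s ht
    have h4 : g * t * g⁻¹ = u * (s * t * s⁻¹) * u⁻¹ := by rw [hgu]; group
    rw [h4, h3, mem_tor_comm h1 (inv_mem ht)]
    group
  refine ⟨?_, h2⟩
  have h5 := T.conj_s h1
  rw [T.s_inv] at h5
  calc g * g = u * (s * u * s) := by rw [hgu]; group
    _ = 1 := by rw [h5]; group

variable (T : Tor a s ((Fintype.card F + 1) / 2))
include Q T

/-- the torus has a unique involution -/
theorem tor_inv {x y : PSL F} (hx : x ∈ Subgroup.zpowers a) (hy : y ∈ Subgroup.zpowers a)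
    (hx1 : x ≠ 1) (hy1 : y ≠ 1) (hxx : x * x = 1) (hyy : y * y = 1) : x = y := by
  obtain ⟨r, hr⟩ : ∃ r : ℕ, (Fintype.card F + 1) / 2 = 2 * r := ⟨(Fintype.card F + 1) / 2 / 2, by
    have := Q.m_mod; omega⟩
  have key : ∀ x ∈ Subgroup.zpowers a, x ≠ 1 → x * x = 1 → x = a ^ (r : ℤ) := by
    rintro x ⟨k, hk⟩ hx1 hxx
    have hk : a ^ k = x := hk
    have h1 : a ^ (2 * k) = 1 := by
      rw [two_mul, _root_.zpow_add, hk, hxx]
    have h2 : ((orderOf a : ℕ) : ℤ) ∣ 2 * k := orderOf_dvd_iff_zpow_eq_one.2 h1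
    rw [T.ord, hr] at h2
    obtain ⟨c, hc⟩ := h2
    have h3 : k = r * c := by
      push_cast at hc
      linarith
    have h4 : a ^ ((2 * r : ℕ) : ℤ) = 1 := by
      rw [zpow_natCast, ← hr, ← T.ord, pow_orderOf_eq_one]
    rcases Int.even_or_odd' c with ⟨e, he | he⟩
    · exfalso
      apply hx1
      rw [← hk, h3, he]
      have : (r : ℤ) * (2 * e) = ((2 * r : ℕ) : ℤ) * e := by push_cast; ring
      rw [this, _root_.zpow_mul, h4, _root_.one_zpow]
    · rw [← hk, h3, he]
      have : (r : ℤ) * (2 * e + 1) = ((2 * r : ℕ) : ℤ) * e + r := by push_cast; ring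
      rw [this, _root_.zpow_add, _root_.zpow_mul, h4, _root_.one_zpow, one_mul]
  rw [key x hx hx1 hxx, key y hy hy1 hyy]

/-- the square of a torus element is not the involution -/
theorem tor_sq {x y : PSL F} (hx : x ∈ Subgroup.zpowers a) (hy1 : y ≠ 1) (hyy : y * y = 1) :
    x * x ≠ y := by
  haveI := finite_psl F
  intro h
  have h4 : orderOf x = 2 ^ (1 + 1) := by
    apply orderOf_eq_prime_pow
    · rw [pow_one, sq, h]
      exact hy1
    · have : x ^ 2 ^ (1 + 1) = (x * x) * (x * x) := by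
        rw [← pow_two, ← pow_two, ← pow_mul]
        norm_num
      rw [this, h, hyy]
  have := orderOf_dvd_natCard (⟨x, hx⟩ : Subgroup.zpowers a)
  rw [Subgroup.orderOf_mk, Nat.card_zpowers, T.ord, h4] at this
  have h5 := Q.m_mod
  omega

theorem inv_comm_iff {z : PSL F} (hz : z ∈ Subgroup.zpowers a) (hz1 : z ≠ 1) (hzz : z * z = 1)
    {g : PSL F} : g * z = z * g ↔ g ∈ Subgroup.normalizer (Subgroup.zpowers a : Set (PSL F)) := by
  constructor
  · intro h
    apply T.mem_normalizer_of hz hz1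
    have : g⁻¹ * z * g = z := by rw [mul_assoc, ← h, inv_mul_cancel_left]
    rwa [this]
  · intro h
    have h1 : g * z * g⁻¹ ∈ Subgroup.zpowers a := (Subgroup.mem_normalizer_iff.1 h z).1 hz
    have h2 : g * z * g⁻¹ = z := by
      apply tor_inv Q T h1 hz _ hz1 _ hzz
      · intro h3
        apply hz1
        calc z = g⁻¹ * (g * z * g⁻¹) * g := by group
          _ = 1 := by rw [h3]; group
      · calc g * z * g⁻¹ * (g * z * g⁻¹) = g * (z * z) * g⁻¹ := by group
          _ = 1 := by rw [hzz]; group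
    calc g * z = g * z * g⁻¹ * g := by group
      _ = z * g := by rw [h2]

end tor

end Cfsg.Agent.H560.Sol3
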