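import Cfsg.Agent.H560.Sol3A

/-!
# `PSL(2, q)`, `q ≡ 3 mod 8` a power of three: solvable subgroups
-/

set_option autoImplicit false
set_option linter.unusedSectionVars false
set_option linter.style.haveILetI false

namespace Cfsg.Agent.H560.Sol3

open Matrix OnePoint MulAction
open Cfsg.Agent.OddCyclic.Zass
open Cfsg.Agent.H102.PslAct
open Cfsg.Agent.H102.RankOneSol (Free Fix1 Fix2 exists_normal_abelian)

attribute [local instance] act

theorem exists_A {G : Type*} [Group G] {K : Subgroup G} (hs : Group.IsSolvable K) {x : G}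
    (hx : x ∈ K) (hx1 : x ≠ 1) :
    ∃ A : Subgroup G, A ≤ K ∧ (∃ t ∈ A, t ≠ 1) ∧ (∀ s ∈ A, ∀ t ∈ A, s * t = t * s) ∧
      ∀ k ∈ K, ∀ t ∈ A, k * t * k⁻¹ ∈ A := by
  have hnt : Nontrivial K := ⟨⟨⟨x, hx⟩, 1, fun h => hx1 (congrArg Subtype.val h)⟩⟩
  obtain ⟨A, hA, ⟨t, ht, ht1⟩, hc⟩ := exists_normal_abelian hs hnt
  refine ⟨A.map K.subtype, ?_, ⟨t, ⟨t, ht, rfl⟩, fun h => ht1 (Subtype.ext h)⟩, ?_, ?_⟩
  · rintro _ ⟨u, -, rfl⟩
    exact u.2
  · rintro _ ⟨u, hu, rfl⟩ _ ⟨v, hv, rfl⟩
    exact congrArg Subtype.val (hc u hu v hv)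
  · rintro k hk _ ⟨u, hu, rfl⟩
    exact ⟨⟨k, hk⟩ * u * ⟨k, hk⟩⁻¹, hA.conj_mem u hu ⟨k, hk⟩, rfl⟩

/-- the product of two non-trivial elements of a four-group is the third -/
theorem four_mul {G : Type*} [Group G] {z w p q r : G} (hz : z * z = 1) (hw : w * w = 1)
    (hc : z * w = w * z) (hp : p = z ∨ p = w ∨ p = z * w) (hq : q = z ∨ q = w ∨ q = z * w)
    (hr : r = z ∨ r = w ∨ r = z * w) (hpq : p ≠ q) (hpr : p ≠ r) (hqr : q ≠ r) : p * q = r := by
  have e1 : z * (z * w) = w := by rw [← mul_assoc, hz, one_mul]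
  have e2 : z * w * z = w := by rw [hc, mul_assoc, hz, mul_one]
  have e3 : w * (z * w) = z := by rw [hc, ← mul_assoc, hw, one_mul]
  have e4 : z * w * w = z := by rw [mul_assoc, hw, mul_one]
  rcases hp with rfl | rfl | rfl <;> rcases hq with rfl | rfl | rfl <;>
    rcases hr with rfl | rfl | rfl <;>
    first
    | exact absurd rfl hpq
    | exact absurd rfl hpr
    | exact absurd rfl hqr
    | rfl
    | exact hc.symm
    | exact e1
    | exact e2
    | exact e3
    | exact e4

variable {F : Type*} [Field F] [DecidableEq F] [Fintype F] (Q : Q3 F)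

theorem comm_fix1 {t s : PSL F} {a : OnePoint F} (ht : Fix1 t a) (h : s * t = t * s) : s • a = a := by
  rw [← ht, ← mul_smul, ← h, mul_smul, (ht a).2 rfl]

/-- `g` preserves the pair `{a, b}` -/
def Pres (a b : OnePoint F) (g : PSL F) : Prop :=
  (g • a = a ∧ g • b = b) ∨ (g • a = b ∧ g • b = a)

theorem pres_of_conj {t g : PSL F} {a b : OnePoint F} (hab : a ≠ b) (ht : Fix2 t a b)
    (ha : (g * t * g⁻¹) • a = a) (hb : (g * t * g⁻¹) • b = b) : Pres a b g := by
  have h1 : ∀ c : OnePoint F, (g * t * g⁻¹) • c = c → g⁻¹ • c = a ∨ g⁻¹ • c = b := by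
    intro c hc
    rw [← ht, eq_inv_smul_iff, ← mul_smul, ← mul_smul]
    exact hc
  rcases h1 a ha with h | h <;> rcases h1 b hb with h' | h'
  · exact absurd (smul_left_cancel g⁻¹ (h.trans h'.symm)) hab
  · left
    exact ⟨(inv_smul_eq_iff.1 h).symm, (inv_smul_eq_iff.1 h').symm⟩
  · right
    exact ⟨(inv_smul_eq_iff.1 h').symm, (inv_smul_eq_iff.1 h).symm⟩
  · exact absurd (smul_left_cancel g⁻¹ (h.trans h'.symm)) hab

include Q

theorem comm_fix2 {t s : PSL F} {a b : OnePoint F} (hab : a ≠ b) (ht : Fix2 t a b)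
    (h : s * t = t * s) : s • a = a ∧ s • b = b := by
  have hta := (ht a).2 (Or.inl rfl)
  have htb := (ht b).2 (Or.inr rfl)
  have e : s * t * s⁻¹ = t := by rw [h, mul_inv_cancel_right]
  rcases pres_of_conj hab ht (g := s) (by rw [e]; exact hta) (by rw [e]; exact htb) with h1 | h1
  · exact h1
  · exfalso
    have h2 : (s * t) * (s * t) = 1 := swap_sq hab (by rw [mul_smul, hta, h1.1])
      (by rw [mul_smul, htb, h1.2])
    have h3 : s * s = 1 := swap_sq hab h1.1 h1.2
    have h4 : t * t = 1 := by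
      calc t * t = (s * s) * (t * t) := by rw [h3, one_mul]
        _ = s * (s * t) * t := by group
        _ = s * (t * s) * t := by rw [h]
        _ = (s * t) * (s * t) := by group
        _ = 1 := h2
    have h5 : t ≠ 1 := fix2_ne_one ht (by have := Q.gt; omega)
    exact free_of_ord_two Q h5 h4 a hta

theorem two_le_m : 2 ≤ (Fintype.card F + 1) / 2 := by
  have := Q.gt; omega

theorem solv_cases {K : Subgroup (PSL F)} (hs : Group.IsSolvable K) {x : PSL F} (hx : x ∈ K)
    (hx1 : x ≠ 1) :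
    (∃ a : OnePoint F, ∀ k ∈ K, k • a = a) ∨
    (∃ a b : OnePoint F, a ≠ b ∧ ∀ k ∈ K, Pres a b k) ∨
    (∃ a s : PSL F, Tor a s ((Fintype.card F + 1) / 2) ∧
      K ≤ Subgroup.normalizer (Subgroup.zpowers a : Set (PSL F))) ∨
    (∃ A : Subgroup (PSL F), A ≤ K ∧ (∀ t ∈ A, t * t = 1) ∧ (∀ k ∈ K, ∀ t ∈ A, k * t * k⁻¹ ∈ A) ∧
      ∃ z ∈ A, ∃ w ∈ A, z ≠ 1 ∧ w ≠ 1 ∧ z ≠ w ∧ ∀ t ∈ A, t = 1 ∨ t = z ∨ t = w ∨ t = z * w) := by
  obtain ⟨A, hAK, ⟨t, ht, ht1⟩, hc, hn⟩ := exists_A hs hx hx1
  by_cases h1 : ∃ t ∈ A, ∃ a : OnePoint F, Fix1 t a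
  · obtain ⟨t, ht, a, hta⟩ := h1
    left
    refine ⟨a, fun k hk => ?_⟩
    have h2 := hn k hk t ht
    have h3 := comm_fix1 hta (hc _ h2 t ht)
    have h4 := (fix1_conj hta k a).1 h3
    exact h4.symm
  by_cases h2 : ∃ t ∈ A, ∃ a b : OnePoint F, a ≠ b ∧ Fix2 t a b
  · obtain ⟨t, ht, a, b, hab, hta⟩ := h2
    right; left
    refine ⟨a, b, hab, fun k hk => ?_⟩
    have h3 := hn k hk t ht
    obtain ⟨h4, h5⟩ := comm_fix2 Q hab hta (hc _ h3 t ht)
    exact pres_of_conj hab hta h4 h5
  have hfree : ∀ t ∈ A, t ≠ 1 → Free (OnePoint F) t := by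
    intro t ht ht1
    rcases fix_cases ht1 with h | h | h
    · exact h
    · exact absurd ⟨t, ht, h⟩ h1
    · exact absurd ⟨t, ht, h⟩ h2
  right; right
  by_cases h3 : ∃ t ∈ A, t * t ≠ 1
  · left
    obtain ⟨t, ht, ht2⟩ := h3
    have ht1 : t ≠ 1 := by
      rintro rfl
      exact ht2 (one_mul _)
    obtain ⟨a, s, T, hta⟩ := exists_tor_of_free Q.hO (hfree t ht ht1)
    refine ⟨a, s, T, fun k hk => ?_⟩
    have h4 := hn k hk t ht
    have h5 : k * t * k⁻¹ ∈ Subgroup.centralizer ({t} : Set (PSL F)) := by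
      rw [Subgroup.mem_centralizer_singleton_iff]
      exact hc _ h4 t ht
    rw [T.centralizer_eq hta ht1 ht2] at h5
    have h6 := T.mem_normalizer_of hta ht1 (g := k⁻¹) (by rwa [inv_inv])
    exact inv_mem_iff.1 h6
  · push Not at h3
    by_cases h4 : ∃ z ∈ A, z ≠ 1 ∧ ∀ k ∈ K, k * z = z * k
    · left
      obtain ⟨z, hz, hz1, hzc⟩ := h4
      obtain ⟨a, s, T, hza⟩ := exists_tor_of_free Q.hO (hfree z hz hz1)
      exact ⟨a, s, T, fun k hk => (inv_comm_iff Q T hza hz1 (h3 z hz)).1 (hzc k hk)⟩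
    · right
      push Not at h4
      obtain ⟨k, hk, hkt⟩ := h4 t ht ht1
      refine ⟨A, hAK, h3, hn, t, ht, k * t * k⁻¹, hn k hk t ht, ht1, ?_, ?_, ?_⟩
      · intro h
        apply ht1
        calc t = k⁻¹ * (k * t * k⁻¹) * k := by group
          _ = 1 := by rw [h]; group
      · intro h
        apply hkt
        calc k * t = (k * t * k⁻¹) * k := by group
          _ = t * k := by rw [← h]
      · intro u hu
        obtain ⟨a, s, T, hta⟩ := exists_tor_of_free Q.hO (hfree t ht ht1)
        set w := k * t * k⁻¹ with hw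
        have hwA : w ∈ A := hn k hk t ht
        have hw1 : w ≠ 1 := by
          intro h
          apply ht1
          calc t = k⁻¹ * (k * t * k⁻¹) * k := by group
            _ = 1 := by rw [← hw, h]; group
        have hwt : w ≠ t := by
          intro h
          apply hkt
          calc k * t = (k * t * k⁻¹) * k := by group
            _ = t * k := by rw [← hw, h]
        have huN := (inv_comm_iff Q T hta ht1 (h3 t ht)).1 (hc u hu t ht)
        have hwN := (inv_comm_iff Q T hta ht1 (h3 t ht)).1 (hc w hwA t ht)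
        by_cases huT : u ∈ Subgroup.zpowers a
        · by_cases hu1 : u = 1
          · exact Or.inl hu1
          · exact Or.inr (Or.inl (tor_inv Q T huT hta hu1 ht1 (h3 u hu) (h3 t ht)))
        · have hwT : w ∉ Subgroup.zpowers a := fun h =>
            hwt (tor_inv Q T h hta hw1 ht1 (h3 w hwA) (h3 t ht))
          have hus : u * s ∈ Subgroup.zpowers a := by
            rcases (T.mem_normalizer_iff (two_le_m Q)).1 huN with h | h
            · exact absurd h huT
            · exact h
          have hws : w * s ∈ Subgroup.zpowers a := by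
            rcases (T.mem_normalizer_iff (two_le_m Q)).1 hwN with h | h
            · exact absurd h hwT
            · exact h
          have hwi : w⁻¹ = w := inv_eq_of_mul_eq_one_left (h3 w hwA)
          have huw : u * w ∈ Subgroup.zpowers a := by
            have h5 := mul_mem hus (inv_mem hws)
            have e : u * s * (w * s)⁻¹ = u * w⁻¹ := by group
            rwa [e, hwi] at h5
          right; right
          by_cases h5 : u * w = 1
          · left
            calc u = u * w * w⁻¹ := by group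
              _ = w := by rw [h5, one_mul, hwi]
          · right
            have h6 := tor_inv Q T huw hta h5 ht1 (h3 _ (mul_mem hu hwA)) (h3 t ht)
            calc u = u * w * w⁻¹ := by group
              _ = t * w := by rw [h6, hwi]

/-- an element of order prime to six normalizing a four-group centralizes it -/
theorem four_comm {A : Subgroup (PSL F)} {z w x : PSL F} (hz : z ∈ A) (hz1 : z ≠ 1)
    (hA : ∀ t ∈ A, t = 1 ∨ t = z ∨ t = w ∨ t = z * w) (hx : ∀ t ∈ A, x * t * x⁻¹ ∈ A)
    (ho : Nat.Coprime (orderOf x) 6) : x * z = z * x := by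
  haveI := finite_psl F
  have hpow : ∀ k : ℕ, ∀ t ∈ A, x ^ k * t * (x ^ k)⁻¹ ∈ A := by
    intro k
    induction k with
    | zero => intro t ht; simpa using ht
    | succ k ih =>
      intro t ht
      have := hx _ (ih t ht)
      have e : x ^ (k + 1) * t * (x ^ (k + 1))⁻¹ = x * (x ^ k * t * (x ^ k)⁻¹) * x⁻¹ := by
        rw [pow_succ']; group
      rwa [e]
  have hne : ∀ k : ℕ, x ^ k * z * (x ^ k)⁻¹ ≠ 1 := by
    intro k h
    apply hz1
    calc z = (x ^ k)⁻¹ * (x ^ k * z * (x ^ k)⁻¹) * x ^ k := by group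
      _ = 1 := by rw [h]; group
  have key : ∀ k j : ℕ, k < j → x ^ k * z * (x ^ k)⁻¹ = x ^ j * z * (x ^ j)⁻¹ →
      x ^ (j - k) * z * (x ^ (j - k))⁻¹ = z := by
    intro k j hkj h
    have e : x ^ j = x ^ k * x ^ (j - k) := by rw [← pow_add]; congr 1; omega
    rw [e] at h
    calc x ^ (j - k) * z * (x ^ (j - k))⁻¹
        = (x ^ k)⁻¹ * (x ^ k * x ^ (j - k) * z * (x ^ k * x ^ (j - k))⁻¹) * x ^ k := by group
      _ = (x ^ k)⁻¹ * (x ^ k * z * (x ^ k)⁻¹) * x ^ k := by rw [h]
      _ = z := by group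
  have hex : ∃ j : ℕ, (j = 1 ∨ j = 2 ∨ j = 3) ∧ x ^ j * z * (x ^ j)⁻¹ = z := by
    have h0 := hA _ (hpow 0 z hz)
    have h1 := hA _ (hpow 1 z hz)
    have h2 := hA _ (hpow 2 z hz)
    have h3 := hA _ (hpow 3 z hz)
    by_contra hcon
    push Not at hcon
    have d1 := hcon 1 (Or.inl rfl)
    have d2 := hcon 2 (Or.inr (Or.inl rfl))
    have d3 := hcon 3 (Or.inr (Or.inr rfl))
    have e12 : x ^ 1 * z * (x ^ 1)⁻¹ ≠ x ^ 2 * z * (x ^ 2)⁻¹ := fun h => d1 (key 1 2 (by omega) h)
    have e13 : x ^ 1 * z * (x ^ 1)⁻¹ ≠ x ^ 3 * z * (x ^ 3)⁻¹ := fun h => d2 (key 1 3 (by omega) h)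
    have e23 : x ^ 2 * z * (x ^ 2)⁻¹ ≠ x ^ 3 * z * (x ^ 3)⁻¹ := fun h => d1 (key 2 3 (by omega) h)
    rcases h1 with h1 | h1 | h1 | h1
    · exact hne 1 h1
    · exact d1 h1
    all_goals
      rcases h2 with h2 | h2 | h2 | h2
      · exact hne 2 h2
      · exact d2 h2
      all_goals
        rcases h3 with h3 | h3 | h3 | h3
        · exact hne 3 h3
        · exact d3 h3
        all_goals
          first
          | exact e12 (h1.trans h2.symm)
          | exact e13 (h1.trans h3.symm)
          | exact e23 (h2.trans h3.symm)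
  obtain ⟨j, hj, hjz⟩ := hex
  have hcomm : x ^ j * z = z * x ^ j := by
    calc x ^ j * z = x ^ j * z * (x ^ j)⁻¹ * x ^ j := by group
      _ = z * x ^ j := by rw [hjz]
  have hcop : Nat.Coprime (orderOf x) j := by
    rcases hj with rfl | rfl | rfl
    · exact Nat.coprime_one_right _
    · exact Nat.Coprime.coprime_dvd_right (by norm_num) ho
    · exact Nat.Coprime.coprime_dvd_right (by norm_num) ho
  obtain ⟨k, hk⟩ := exists_pow_eq_self_of_coprime hcop.symm
  have h5 : Commute (x ^ j) z := hcomm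
  have h6 : Commute ((x ^ j) ^ k) z := h5.pow_left k
  rw [hk] at h6
  exact h6

theorem cop_two {g : PSL F} {a b : OnePoint F} (hab : a ≠ b) (ha : g • a = a) (hb : g • b = b) :
    Nat.Coprime (orderOf g) 6 := by
  apply Nat.Coprime.coprime_dvd_left (ord_two Q.hO hab ha hb)
  have h1 := Q.d_odd
  have h2 := Q.not_three_dvd_d
  rw [show (6 : ℕ) = 2 * 3 by norm_num]
  exact Nat.Coprime.mul_right (Nat.coprime_two_right.2 h1)
    ((Nat.Prime.coprime_iff_not_dvd Nat.prime_three).2 h2).symm

/-- solvable subgroups containing an element with two fixed points -/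
theorem sol_fix2 {x : PSL F} {a b : OnePoint F} (hab : a ≠ b) (hx : Fix2 x a b)
    {K : Subgroup (PSL F)} (hs : Group.IsSolvable K) (hxK : x ∈ K) :
    (∀ k ∈ K, k • a = a) ∨ (∀ k ∈ K, k • b = b) ∨ (∀ k ∈ K, Pres a b k) := by
  have hxa := (hx a).2 (Or.inl rfl)
  have hxb := (hx b).2 (Or.inr rfl)
  have hx1 : x ≠ 1 := fix2_ne_one hx (by have := Q.gt; omega)
  have hcop := cop_two Q hab hxa hxb
  have hodd : x * x ≠ 1 := fun h => free_of_ord_two Q hx1 h a hxa
  rcases solv_cases Q hs hxK hx1 with ⟨c, hc⟩ | ⟨c, d, hcd, hK⟩ | ⟨c, s, T, hK⟩ |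
    ⟨A, hAK, h2, hn, z, hz, w, hw, hz1, hw1, hzw, hA⟩
  · rcases (hx c).1 (hc x hxK) with rfl | rfl
    · exact Or.inl hc
    · exact Or.inr (Or.inl hc)
  · right; right
    rcases hK x hxK with h | h
    · have h1 := (hx c).1 h.1
      have h2 := (hx d).1 h.2
      rcases h1 with rfl | rfl <;> rcases h2 with rfl | rfl
      · exact absurd rfl hcd
      · exact hK
      · intro k hk
        rcases hK k hk with h | h
        · exact Or.inl ⟨h.2, h.1⟩
        · exact Or.inr ⟨h.2, h.1⟩
      · exact absurd rfl hcd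
    · exact absurd (swap_sq hcd h.1 h.2) hodd
  · exfalso
    by_cases hT : x ∈ Subgroup.zpowers c
    · exact T.free Q.hO hT hx1 a hxa
    · exact hodd (tor_out T (two_le_m Q) (hK hxK) hT).1
  · exfalso
    have h3 := four_comm Q hz hz1 hA (hn x hxK) hcop
    have h4 := (comm_fix2 Q hab hx h3.symm).1
    exact free_of_ord_two Q hz1 (h2 z hz) a h4

/-- solvable subgroups containing a fixed-point-free element which is not an involution -/
theorem sol_free {x a s : PSL F} (T : Tor a s ((Fintype.card F + 1) / 2))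
    (hx : x ∈ Subgroup.zpowers a) (hxx : x * x ≠ 1)
    {K : Subgroup (PSL F)} (hs : Group.IsSolvable K) (hxK : x ∈ K) :
    K ≤ Subgroup.normalizer (Subgroup.zpowers a : Set (PSL F)) := by
  haveI := finite_psl F
  have hx1 : x ≠ 1 := by
    rintro rfl
    exact hxx (one_mul _)
  have hxf : Free (OnePoint F) x := T.free Q.hO hx hx1
  have hxxf : Free (OnePoint F) (x * x) := T.free Q.hO (mul_mem hx hx) hxx
  rcases solv_cases Q hs hxK hx1 with ⟨c, hc⟩ | ⟨c, d, hcd, hK⟩ | ⟨c, s', T', hK⟩ |
    ⟨A, hAK, h2, hn, z, hz, w, hw, hz1, hw1, hzw, hA⟩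
  · exact absurd (hc x hxK) (hxf c)
  · exfalso
    rcases hK x hxK with h | h
    · exact hxf c h.1
    · exact hxx (swap_sq hcd h.1 h.2)
  · by_cases hT : x ∈ Subgroup.zpowers c
    · have h1 := T.centralizer_eq hx hx1 hxx
      have h2 := T'.centralizer_eq hT hx1 hxx
      rw [← h1, h2]
      exact hK
    · exact absurd (tor_out T' (two_le_m Q) (hK hxK) hT).1 hxx
  · exfalso
    have hord : Nat.Coprime (orderOf (x * x)) 6 := by
      have h1 : orderOf (x * x) ∣ (Fintype.card F + 1) / 2 / 2 := by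
        apply orderOf_dvd_of_pow_eq_one
        rw [← sq, ← pow_mul]
        have h3 : 2 * ((Fintype.card F + 1) / 2 / 2) = (Fintype.card F + 1) / 2 := by
          have := Q.m_mod
          omega
        rw [h3]
        exact orderOf_dvd_iff_pow_eq_one.1 (ord_free Q hxf)
      apply Nat.Coprime.coprime_dvd_left h1
      rw [show (6 : ℕ) = 2 * 3 by norm_num]
      apply Nat.Coprime.mul_right
      · rw [Nat.coprime_two_right, Nat.odd_iff]
        have := Q.m_mod
        omega
      · apply Nat.Coprime.symm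
        rw [Nat.Prime.coprime_iff_not_dvd Nat.prime_three]
        have := Q.mod
        have := Q.dvd
        omega
    have hxn : ∀ t ∈ A, (x * x) * t * (x * x)⁻¹ ∈ A := by
      intro t ht
      have := hn x hxK _ (hn x hxK t ht)
      have e : (x * x) * t * (x * x)⁻¹ = x * (x * t * x⁻¹) * x⁻¹ := by group
      rwa [e]
    have hz4 := four_comm Q hz hz1 hA hxn hord
    have hw4 := four_comm Q hw hw1 (fun t ht => by
      rcases hA t ht with h | h | h | h
      · exact Or.inl h
      · exact Or.inr (Or.inr (Or.inl h))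
      · exact Or.inr (Or.inl h)
      · right; right; right
        have h5 := h2 (z * w) (mul_mem hz hw)
        have h6 := h2 z hz
        have h7 := h2 w hw
        rw [h]
        calc z * w = z * w * 1 := by group
          _ = z * w * (z * z) := by rw [h6]
          _ = z * w * z * (w * w) * z := by rw [h7]; group
          _ = (z * w * (z * w)) * (w * z) := by group
          _ = w * z := by rw [h5, one_mul]) hxn hord
    have hx4 : (x * x) * (x * x) ≠ 1 := by
      intro h
      have h5 : orderOf (x * x) ∣ 2 := orderOf_dvd_of_pow_eq_one (by rw [sq, h])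
      have h6 : orderOf (x * x) ∣ 1 := by
        rw [← hord]
        exact Nat.dvd_gcd dvd_rfl (h5.trans (by norm_num))
      exact hxx (orderOf_eq_one_iff.1 (Nat.dvd_one.1 h6))
    have hc := T.centralizer_eq (mul_mem hx hx) hxx hx4
    have hzT : z ∈ Subgroup.zpowers a := by
      rw [← hc, Subgroup.mem_centralizer_singleton_iff]
      exact hz4.symm
    have hwT : w ∈ Subgroup.zpowers a := by
      rw [← hc, Subgroup.mem_centralizer_singleton_iff]
      exact hw4.symm
    exact hzw (tor_inv Q T hzT hwT hz1 hw1 (h2 z hz) (h2 w hw))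

/-- solvable subgroups containing an element of order three and not contained in a Borel subgroup -/
theorem sol_fix1 {x : PSL F} {a : OnePoint F} (hx : Fix1 x a)
    {K : Subgroup (PSL F)} (hs : Group.IsSolvable K) (hxK : x ∈ K) {y : PSL F} (hy : y ∈ K)
    (hya : y • a ≠ a) :
    ∃ (i : ℕ) (w : PSL F), i < 3 ∧ w ≠ 1 ∧ w * w = 1 ∧ (x * w) ^ 3 = 1 ∧ y = x ^ i * w := by
  have hx1 : x ≠ 1 := fix1_ne_one hx
  have hx3 : x ^ 3 = 1 := fix1_cube Q.three hx
  have hxf : ¬ Free (OnePoint F) x := fun h => h a ((hx a).2 rfl)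
  have hxx : x * x ≠ 1 := by
    intro h
    exact free_of_ord_two Q hx1 h a ((hx a).2 rfl)
  rcases solv_cases Q hs hxK hx1 with ⟨c, hc⟩ | ⟨c, d, hcd, hK⟩ | ⟨c, s', T', hK⟩ |
    ⟨A, hAK, h2, hn, z, hz, w, hw, hz1, hw1, hzw, hA⟩
  · exfalso
    have := (hx c).1 (hc x hxK)
    subst this
    exact hya (hc y hy)
  · exfalso
    rcases hK x hxK with h | h
    · exact hcd (((hx c).1 h.1).trans ((hx d).1 h.2).symm)
    · exact hxx (swap_sq hcd h.1 h.2)
  · exfalso
    by_cases hT : x ∈ Subgroup.zpowers c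
    · exact hxf (T'.free Q.hO hT hx1)
    · exact hxx (tor_out T' (two_le_m Q) (hK hxK) hT).1
  · -- `x` centralizes no involution of `A`
    have hnc : ∀ t ∈ A, t ≠ 1 → x * t ≠ t * x := by
      intro t ht ht1 h
      obtain ⟨c, s, T, htc⟩ := exists_tor_of_free Q.hO (free_of_ord_two Q ht1 (h2 t ht))
      have h3 := (inv_comm_iff Q T htc ht1 (h2 t ht)).1 h
      by_cases hT : x ∈ Subgroup.zpowers c
      · exact hxf (T.free Q.hO hT hx1)
      · exact hxx (tor_out T (two_le_m Q) h3 hT).1
    have hcA : ∀ s ∈ A, ∀ t ∈ A, s * t = t * s := by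
      intro s hs t ht
      have h5 := h2 (s * t) (mul_mem hs ht)
      calc s * t = s * 1 * t := by group
        _ = s * (s * t * (s * t)) * t := by rw [h5]
        _ = (s * s) * t * s * (t * t) := by group
        _ = t * s := by rw [h2 s hs, h2 t ht]; group
    have hA' : ∀ t ∈ A, t ≠ 1 → t = z ∨ t = w ∨ t = z * w := by
      intro t ht ht1
      rcases hA t ht with h | h
      · exact absurd h ht1
      · exact h
    have hconj1 : ∀ (g t : PSL F), t ≠ 1 → g * t * g⁻¹ ≠ 1 := by
      intro g t ht h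
      apply ht
      calc t = g⁻¹ * (g * t * g⁻¹) * g := by group
        _ = 1 := by rw [h]; group
    -- the three conjugates of a non-trivial element of `A`
    have h3c : ∀ t ∈ A, t ≠ 1 → x * t * x⁻¹ ∈ A ∧ x * t * x⁻¹ ≠ 1 ∧ x ^ 2 * t * (x ^ 2)⁻¹ ∈ A ∧
        x ^ 2 * t * (x ^ 2)⁻¹ ≠ 1 ∧ t ≠ x * t * x⁻¹ ∧ t ≠ x ^ 2 * t * (x ^ 2)⁻¹ ∧
        x * t * x⁻¹ ≠ x ^ 2 * t * (x ^ 2)⁻¹ := by
      intro t ht ht1
      have e2 : x ^ 2 * t * (x ^ 2)⁻¹ = x * (x * t * x⁻¹) * x⁻¹ := by rw [sq]; group
      have h4 := hn x hxK t ht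
      have h5 : t ≠ x * t * x⁻¹ := by
        intro h
        apply hnc t ht ht1
        calc x * t = x * t * x⁻¹ * x := by group
          _ = t * x := by rw [← h]
      refine ⟨h4, hconj1 _ _ ht1, ?_, hconj1 _ _ ht1, h5, ?_, ?_⟩
      · rw [e2]
        exact hn x hxK _ h4
      · intro h
        have h6 : Commute (x ^ 2) t := by
          show x ^ 2 * t = t * x ^ 2
          calc x ^ 2 * t = x ^ 2 * t * (x ^ 2)⁻¹ * x ^ 2 := by group
            _ = t * x ^ 2 := by rw [← h]
        have h7 : Commute ((x ^ 2) ^ 2) t := h6.pow_left 2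
        have h8 : (x ^ 2) ^ 2 = x := by
          calc (x ^ 2) ^ 2 = x ^ 3 * x := by rw [← pow_mul, ← pow_succ]
            _ = x := by rw [hx3, one_mul]
        rw [h8] at h7
        exact hnc t ht ht1 h7
      · rw [e2]
        intro h
        apply h5
        exact mul_left_cancel (mul_right_cancel h)
    -- the product of the three conjugates
    have hprod : ∀ t ∈ A, t ≠ 1 → (x * t) ^ 3 = 1 := by
      intro t ht ht1
      obtain ⟨m2, n2, m3, n3, d12, d13, d23⟩ := h3c t ht ht1
      have h4 := four_mul (h2 z hz) (h2 w hw) (hcA z hz w hw) (hA' _ m2 n2) (hA' _ m3 n3)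
        (hA' _ ht ht1) d23 d12.symm d13.symm
      calc (x * t) ^ 3 = (x * t * x⁻¹) * (x ^ 2 * t * (x ^ 2)⁻¹) * x ^ 3 * t := by
            simp only [pow_succ, pow_zero, one_mul]; group
        _ = t * t := by rw [h4, hx3, mul_one]
        _ = 1 := h2 t ht
    obtain ⟨m2, n2, m3, n3, d12, d13, d23⟩ := h3c z hz hz1
    have hthree : ∀ t ∈ A, t ≠ 1 → ∃ i : ℕ, i < 3 ∧ t = x ^ i * z * (x ^ i)⁻¹ := by
      intro t ht ht1
      by_contra hcon
      push Not at hcon
      have c0 := hcon 0 (by omega)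
      have c1 := hcon 1 (by omega)
      have c2 := hcon 2 (by omega)
      rw [pow_zero, one_mul, inv_one, mul_one] at c0
      rw [pow_one] at c1
      have h4 := four_mul (h2 z hz) (h2 w hw) (hcA z hz w hw) (hA' _ hz hz1) (hA' _ m2 n2)
        (hA' _ ht ht1) d12 (Ne.symm c0) (Ne.symm c1)
      have h5 := four_mul (h2 z hz) (h2 w hw) (hcA z hz w hw) (hA' _ hz hz1) (hA' _ m2 n2)
        (hA' _ m3 n3) d12 d13 d23
      exact c2 (h4.symm.trans h5)
    obtain ⟨i, hi, hyi⟩ := hthree (y * z * y⁻¹) (hn y hy z hz) (hconj1 _ _ hz1)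
    set v := (x ^ i)⁻¹ * y with hv
    have hyv : y = x ^ i * v := by rw [hv]; group
    have hvK : v ∈ K := mul_mem (inv_mem (pow_mem hxK i)) hy
    have hvz : v * z * v⁻¹ = z := by
      calc v * z * v⁻¹ = (x ^ i)⁻¹ * (y * z * y⁻¹) * x ^ i := by rw [hv]; group
        _ = z := by rw [hyi]; group
    have hvz' : v * z = z * v := by
      calc v * z = v * z * v⁻¹ * v := by group
        _ = z * v := by rw [hvz]
    set z2 := x * z * x⁻¹ with hz2
    have hz2i : z2⁻¹ = z2 := inv_eq_of_mul_eq_one_left (h2 z2 m2)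
    obtain ⟨c, s, T, hzc⟩ := exists_tor_of_free Q.hO (free_of_ord_two Q hz1 (h2 z hz))
    have hvN := (inv_comm_iff Q T hzc hz1 (h2 z hz)).1 hvz'
    have hz2N := (inv_comm_iff Q T hzc hz1 (h2 z hz)).1 (hcA z2 m2 z hz)
    have hz2T : z2 ∉ Subgroup.zpowers c := fun h =>
      d12 (tor_inv Q T hzc h hz1 n2 (h2 z hz) (h2 z2 m2))
    obtain ⟨-, hinv⟩ := tor_out T (two_le_m Q) hz2N hz2T
    have hmulT : ∀ g ∈ Subgroup.normalizer (Subgroup.zpowers c : Set (PSL F)),
        g ∉ Subgroup.zpowers c → g * z2 ∈ Subgroup.zpowers c := by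
      intro g hg hgT
      have h5 : g * s ∈ Subgroup.zpowers c := by
        rcases (T.mem_normalizer_iff (two_le_m Q)).1 hg with h | h
        · exact absurd h hgT
        · exact h
      have h6 : z2 * s ∈ Subgroup.zpowers c := by
        rcases (T.mem_normalizer_iff (two_le_m Q)).1 hz2N with h | h
        · exact absurd h hz2T
        · exact h
      have h7 := mul_mem h5 (inv_mem h6)
      have e : g * s * (z2 * s)⁻¹ = g * z2⁻¹ := by group
      rwa [e, hz2i] at h7
    have hvA : v ∈ A := by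
      have hv2A := hn v hvK z2 m2
      have hv21 := hconj1 v z2 n2
      by_cases hcase : v * z2 * v⁻¹ = z2
      · -- `v` commutes with `z2`
        have hcomm : v * z2 = z2 * v := by
          calc v * z2 = v * z2 * v⁻¹ * v := by group
            _ = z2 * v := by rw [hcase]
        by_cases hvT : v ∈ Subgroup.zpowers c
        · have h5 := hinv v hvT
          have h6 : z2 * v * z2⁻¹ = v := by rw [← hcomm, mul_inv_cancel_right]
          have h7 : v * v = 1 := by
            nth_rewrite 1 [← h6]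
            rw [h5, inv_mul_cancel]
          by_cases hv1 : v = 1
          · rw [hv1]; exact one_mem A
          · rw [tor_inv Q T hvT hzc hv1 hz1 h7 (h2 z hz)]
            exact hz
        · have h5 := hmulT v hvN hvT
          have hvv := (tor_out T (two_le_m Q) hvN hvT).1
          have h6 : (v * z2) * (v * z2) = 1 := by
            calc (v * z2) * (v * z2) = v * (z2 * v) * z2 := by group
              _ = (v * v) * (z2 * z2) := by rw [← hcomm]; group
              _ = 1 := by rw [hvv, h2 z2 m2, one_mul]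
          by_cases h7 : v * z2 = 1
          · have : v = z2 := by
              calc v = v * z2 * z2⁻¹ := by group
                _ = z2 := by rw [h7, one_mul, hz2i]
            rw [this]; exact m2
          · have h8 := tor_inv Q T h5 hzc h7 hz1 h6 (h2 z hz)
            have : v = z * z2 := by
              calc v = v * z2 * z2⁻¹ := by group
                _ = z * z2 := by rw [h8, hz2i]
            rw [this]; exact mul_mem hz m2
      · exfalso
        have hne : v * z2 * v⁻¹ ≠ z := by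
          intro h
          apply d12
          have : v * z2 * v⁻¹ = v * z * v⁻¹ := by rw [h, hvz]
          exact (mul_left_cancel (mul_right_cancel this)).symm
        have h5 := four_mul (h2 z hz) (h2 w hw) (hcA z hz w hw) (hA' _ hz hz1) (hA' _ m2 n2)
          (hA' _ hv2A hv21) d12 hne.symm (Ne.symm hcase)
        -- `v z2 v⁻¹ = z z2`
        by_cases hvT : v ∈ Subgroup.zpowers c
        · have h6 := hinv v⁻¹ (inv_mem hvT)
          rw [inv_inv] at h6
          have h7 : v * v = z := by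
            calc v * v = v * (z2 * v⁻¹ * z2⁻¹) := by rw [h6]
              _ = (v * z2 * v⁻¹) * z2⁻¹ := by group
              _ = z := by rw [← h5, mul_inv_cancel_right]
          exact tor_sq Q T hvT hz1 (h2 z hz) h7
        · have hu := hmulT v hvN hvT
          have h6 := hinv _ (inv_mem hu)
          rw [inv_inv] at h6
          have h7 : (v * z2) * (v * z2) = z := by
            calc (v * z2) * (v * z2) = (v * z2) * (z2 * (v * z2)⁻¹ * z2⁻¹) := by rw [h6]
              _ = (v * (z2 * z2) * z2⁻¹ * v⁻¹) * z2⁻¹ := by group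
              _ = (v * z2 * v⁻¹) * z2⁻¹ := by rw [h2 z2 m2, mul_one, hz2i]
              _ = z := by rw [← h5, mul_inv_cancel_right]
          exact tor_sq Q T hu hz1 (h2 z hz) h7
    have hv1 : v ≠ 1 := by
      intro h
      rw [h, mul_one] at hyv
      apply hya
      rw [hyv]
      have : ∀ k : ℕ, x ^ k • a = a := by
        intro k
        induction k with
        | zero => rw [pow_zero, one_smul]
        | succ k ih => rw [pow_succ, mul_smul, (hx a).2 rfl, ih]
      exact this i
    exact ⟨i, v, hi, hv1, h2 v hvA, hprod v hvA hv1, hyv⟩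

end Cfsg.Agent.H560.Sol3
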