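import Cfsg.Agent.H560.Sol3B

/-!
# `PSL(2, q)`, `q ≡ 3 mod 8` a power of three: sizes of solubilizers
-/

set_option autoImplicit false
set_option linter.unusedSectionVars false
set_option linter.style.haveILetI false

namespace Cfsg.Agent.H560.Sol3

open Matrix OnePoint MulAction
open Cfsg.Agent.OddCyclic.Zass
open Cfsg.Agent.H102.PslAct
open Cfsg.Agent.H102.RankOneSol (Free Fix1 Fix2 exists_normal_abelian)
open Cfsg.Agent.SignalizersComponents.CoprimeBasic (isSolvable_sup)

attribute [local instance] act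

/-- `⟨x, y⟩` is solvable -/
def R {G : Type*} [Group G] (x y : G) : Prop :=
  Group.IsSolvable ↥(Subgroup.closure ({x, y} : Set G))

theorem R_of_mem {G : Type*} [Group G] {x y : G} {K : Subgroup G} (hK : Group.IsSolvable K)
    (hx : x ∈ K) (hy : y ∈ K) : R x y := by
  have hle : Subgroup.closure ({x, y} : Set G) ≤ K := by
    rw [Subgroup.closure_le]
    rintro z (rfl | rfl)
    · exact hx
    · exact hy
  haveI := hK
  exact Group.isSolvable_of_isSolvable_injective (Subgroup.inclusion_injective hle)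

theorem R_symm {G : Type*} [Group G] {x y : G} (h : R x y) : R y x := by
  unfold R at h ⊢
  rwa [Set.pair_comm]

theorem left_mem {G : Type*} [Group G] (x y : G) : x ∈ Subgroup.closure ({x, y} : Set G) :=
  Subgroup.subset_closure (Or.inl rfl)

theorem right_mem {G : Type*} [Group G] (x y : G) : y ∈ Subgroup.closure ({x, y} : Set G) :=
  Subgroup.subset_closure (Or.inr rfl)

theorem solv_zpowers {G : Type*} [Group G] (x : G) : Group.IsSolvable (Subgroup.zpowers x) := by
  apply Group.isSolvable_of_comm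
  rintro ⟨a, ha⟩ ⟨b, hb⟩
  apply Subtype.ext
  obtain ⟨k, rfl⟩ := ha
  obtain ⟨j, rfl⟩ := hb
  show x ^ k * x ^ j = x ^ j * x ^ k
  rw [← _root_.zpow_add, ← _root_.zpow_add, add_comm]

theorem R_inv {G : Type*} [Group G] {x y : G} (h : y * x * y⁻¹ = x⁻¹) : R x y := by
  have h1 : Subgroup.zpowers y ≤ Subgroup.normalizer (Subgroup.zpowers x : Set G) := by
    rw [Subgroup.zpowers_le, Subgroup.mem_normalizer_iff]
    have key : ∀ g : G, g * x * g⁻¹ = x⁻¹ → ∀ t ∈ Subgroup.zpowers x, g * t * g⁻¹ ∈ Subgroup.zpowers x := by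
      rintro g hg _ ⟨k, rfl⟩
      show g * x ^ k * g⁻¹ ∈ _
      rw [← conj_zpow, hg]
      exact zpow_mem (inv_mem (Subgroup.mem_zpowers x)) k
    intro t
    constructor
    · exact key y h t
    · intro ht
      have h2 : y⁻¹ * x * y⁻¹⁻¹ = x⁻¹ := by
        have : x = y⁻¹ * x⁻¹ * y := by rw [← h]; group
        nth_rewrite 2 [this]
        group
      have h3 := key y⁻¹ h2 _ ht
      have e : y⁻¹ * (y * t * y⁻¹) * y⁻¹⁻¹ = t := by group
      rwa [e] at h3
  exact R_of_mem (isSolvable_sup h1 (solv_zpowers x) (solv_zpowers y))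
    (Subgroup.mem_sup_left (Subgroup.mem_zpowers x)) (Subgroup.mem_sup_right (Subgroup.mem_zpowers y))

theorem R_of_sq {G : Type*} [Group G] {x y : G} (hx : x * x = 1) (hy : y * y = 1) : R x y := by
  -- `x y` is inverted by `x`
  have hxi : x⁻¹ = x := inv_eq_of_mul_eq_one_left hx
  have hyi : y⁻¹ = y := inv_eq_of_mul_eq_one_left hy
  have h1 : R (x * y) x := by
    apply R_inv
    rw [_root_.mul_inv_rev, hxi, hyi, ← mul_assoc, hx, one_mul]
  refine R_of_mem h1 (right_mem _ _) ?_
  have : y = x * (x * y) := by rw [← mul_assoc, hx, one_mul]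
  have h2 := mul_mem (right_mem (x * y) x) (left_mem (x * y) x)
  rwa [← this] at h2

/-- quotients of `A₄` are solvable -/
theorem R_of_cube {G : Type*} [Group G] {x w : G} (hx : x ^ 3 = 1) (hw : w * w = 1)
    (h : (x * w) ^ 3 = 1) : R x w := by
  have hwi : w⁻¹ = w := inv_eq_of_mul_eq_one_left hw
  set w2 := x * w * x⁻¹ with hw2
  have hxi : x⁻¹ = x * x := by
    apply inv_eq_of_mul_eq_one_left
    rw [← hx]; simp only [pow_succ, pow_zero, one_mul]
  have h22 : w2 * w2 = 1 := by
    calc w2 * w2 = x * (w * w) * x⁻¹ := by rw [hw2]; group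
      _ = 1 := by rw [hw]; group
  have hw2i : w2⁻¹ = w2 := inv_eq_of_mul_eq_one_left h22
  have h3 : x * w2 * x⁻¹ = w2 * w := by
    have hx2 : x⁻¹ * x⁻¹ = x := by
      calc x⁻¹ * x⁻¹ = x ^ 3 * (x⁻¹ * x⁻¹) := by rw [hx, one_mul]
        _ = x := by simp only [pow_succ, pow_zero, one_mul]; group
    have e1 : w2 * (x * w2 * x⁻¹) * w = 1 := by
      calc w2 * (x * w2 * x⁻¹) * w = x * w * x * w * (x⁻¹ * x⁻¹) * w := by rw [hw2]; group
        _ = x * w * x * w * x * w := by rw [hx2]
        _ = (x * w) ^ 3 := by simp only [pow_succ, pow_zero, one_mul]; group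
        _ = 1 := h
    calc x * w2 * x⁻¹ = w2⁻¹ * (w2 * (x * w2 * x⁻¹) * w) * w⁻¹ := by group
      _ = w2 * w := by rw [e1, hw2i, hwi, mul_one]
  have hcomm : w2 * w = w * w2 := by
    have e1 : (w2 * w) * (w2 * w) = 1 := by
      rw [← h3]
      calc x * w2 * x⁻¹ * (x * w2 * x⁻¹) = x * (w2 * w2) * x⁻¹ := by group
        _ = 1 := by rw [h22]; group
    calc w2 * w = (w2 * w)⁻¹ := (inv_eq_of_mul_eq_one_left e1).symm
      _ = w * w2 := by rw [_root_.mul_inv_rev, hwi, hw2i]
  have hA : Group.IsSolvable ↥(Subgroup.zpowers w ⊔ Subgroup.zpowers w2) := by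
    apply isSolvable_sup _ (solv_zpowers w) (solv_zpowers w2)
    rw [Subgroup.zpowers_le, Subgroup.mem_normalizer_iff]
    intro t
    have key : ∀ t : G, t ∈ Subgroup.zpowers w → w2 * t * w2⁻¹ = t := by
      rintro _ ⟨k, rfl⟩
      show w2 * w ^ k * w2⁻¹ = w ^ k
      rw [← conj_zpow, hcomm, mul_inv_cancel_right]
    constructor
    · intro ht
      rwa [key t ht]
    · intro ht
      have h5 := key _ ht
      have e : t = w2⁻¹ * (w2 * t * w2⁻¹) * w2 := by group
      rw [e]
      nth_rewrite 1 [← h5]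
      have e2 : w2⁻¹ * (w2 * (w2 * t * w2⁻¹) * w2⁻¹) * w2 = w2 * t * w2⁻¹ := by group
      rw [e2]
      exact ht
  set A := Subgroup.zpowers w ⊔ Subgroup.zpowers w2 with hAdef
  have hwA : w ∈ A := Subgroup.mem_sup_left (Subgroup.mem_zpowers w)
  have hw2A : w2 ∈ A := Subgroup.mem_sup_right (Subgroup.mem_zpowers w2)
  have hmap : ∀ t ∈ A, x * t * x⁻¹ ∈ A := by
    have hle : A ≤ A.comap (MulAut.conj x).toMonoidHom := by
      rw [hAdef, sup_le_iff, Subgroup.zpowers_le, Subgroup.zpowers_le]
      constructor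
      · show x * w * x⁻¹ ∈ A
        exact hw2A
      · show x * w2 * x⁻¹ ∈ A
        rw [h3]
        exact mul_mem hw2A hwA
    intro t ht
    exact hle ht
  have hxN : Subgroup.zpowers x ≤ Subgroup.normalizer (A : Set G) := by
    rw [Subgroup.zpowers_le, Subgroup.mem_normalizer_iff]
    intro t
    constructor
    · exact hmap t
    · intro ht
      have h5 := hmap _ (hmap _ ht)
      have e : x * (x * (x * t * x⁻¹) * x⁻¹) * x⁻¹ = t := by
        calc x * (x * (x * t * x⁻¹) * x⁻¹) * x⁻¹ = x ^ 3 * t * (x ^ 3)⁻¹ := by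
              simp only [pow_succ, pow_zero, one_mul]; group
          _ = t := by rw [hx]; group
      rwa [e] at h5
  exact R_of_mem (isSolvable_sup hxN hA (solv_zpowers x))
    (Subgroup.mem_sup_right (Subgroup.mem_zpowers x)) (Subgroup.mem_sup_left hwA)

variable {F : Type*} [Field F] [DecidableEq F] [Fintype F] (Q : Q3 F)

section fix2

include Q

theorem sol_set_fix2 {x : PSL F} {a b : OnePoint F} (hab : a ≠ b) (hx : Fix2 x a b) :
    {y : PSL F | R x y} = ((stabilizer (PSL F) a : Set (PSL F)) ∪ (stabilizer (PSL F) b : Set (PSL F))) ∪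
      {y : PSL F | y • a = b ∧ y • b = a} := by
  have hxa := (hx a).2 (Or.inl rfl)
  have hxb := (hx b).2 (Or.inr rfl)
  ext y
  simp only [Set.mem_ofPred_eq, Set.mem_union, SetLike.mem_coe, mem_stabilizer_iff]
  constructor
  · intro h
    rcases sol_fix2 Q hab hx h (left_mem x y) with h1 | h1 | h1
    · exact Or.inl (Or.inl (h1 y (right_mem x y)))
    · exact Or.inl (Or.inr (h1 y (right_mem x y)))
    · rcases h1 y (right_mem x y) with h2 | h2
      · exact Or.inl (Or.inl h2.1)
      · exact Or.inr h2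
  · rintro ((h | h) | h)
    · exact R_of_mem (K := stabilizer (PSL F) a) (solv_one a) hxa h
    · exact R_of_mem (K := stabilizer (PSL F) b) (solv_one b) hxb h
    · apply R_inv
      have h1 : y * y = 1 := swap_sq hab h.1 h.2
      have h2 : (y * x) * (y * x) = 1 := swap_sq hab (by rw [mul_smul, hxa, h.1])
        (by rw [mul_smul, hxb, h.2])
      have h3 : y⁻¹ = y := inv_eq_of_mul_eq_one_left h1
      rw [h3]
      apply eq_inv_of_mul_eq_one_left
      rw [← h2]; group

/-- elements interchanging two points -/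
theorem card_swap {a b : OnePoint F} (hab : a ≠ b) :
    Nat.card {y : PSL F // y • a = b ∧ y • b = a} = (Fintype.card F - 1) / 2 := by
  haveI := finite_psl F
  obtain ⟨g, hg1, hg2⟩ := trans hab hab.symm
  rw [← card_two Q.hO.card2 hab]
  symm
  apply Nat.card_congr
  exact
    { toFun := fun t => ⟨g * t.1, by
        constructor
        · rw [mul_smul, show t.1 • a = a from t.2.1, hg1]
        · rw [mul_smul, show t.1 • b = b from t.2.2, hg2]⟩
      invFun := fun y => ⟨g⁻¹ * y.1, by
        constructor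
        · show (g⁻¹ * y.1) • a = a
          rw [mul_smul, y.2.1, inv_smul_eq_iff, hg1]
        · show (g⁻¹ * y.1) • b = b
          rw [mul_smul, y.2.2, inv_smul_eq_iff, hg2]⟩
      left_inv := fun t => Subtype.ext (by show g⁻¹ * (g * t.1) = t.1; group)
      right_inv := fun y => Subtype.ext (by show g * (g⁻¹ * y.1) = y.1; group) }

theorem card_sol_fix2 {x : PSL F} {a b : OnePoint F} (hab : a ≠ b) (hx : Fix2 x a b) :
    Nat.card {y : PSL F // R x y} = Fintype.card F * (Fintype.card F - 1) := by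
  haveI := finite_psl F
  have h1 : Nat.card {y : PSL F // R x y} = Set.ncard {y : PSL F | R x y} := rfl
  rw [h1, sol_set_fix2 Q hab hx, Set.ncard_union_eq _ (Set.toFinite _) (Set.toFinite _)]
  · have h2 := Set.ncard_union_add_ncard_inter (stabilizer (PSL F) a : Set (PSL F))
      (stabilizer (PSL F) b : Set (PSL F)) (Set.toFinite _) (Set.toFinite _)
    have h3 : ((stabilizer (PSL F) a : Set (PSL F)) ∩ (stabilizer (PSL F) b : Set (PSL F))).ncard =
        (Fintype.card F - 1) / 2 := card_two Q.hO.card2 hab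
    have h4 : (stabilizer (PSL F) a : Set (PSL F)).ncard = Fintype.card F * ((Fintype.card F - 1) / 2) :=
      card_stabilizer Q.hO a
    have h5 : (stabilizer (PSL F) b : Set (PSL F)).ncard = Fintype.card F * ((Fintype.card F - 1) / 2) :=
      card_stabilizer Q.hO b
    have h6 : ({y : PSL F | y • a = b ∧ y • b = a}).ncard = (Fintype.card F - 1) / 2 :=
      card_swap Q hab
    rw [h6]
    rw [h3, h4, h5] at h2
    rw [h2]
    obtain ⟨k, hk⟩ : ∃ k, Fintype.card F - 1 = 2 * k := ⟨(Fintype.card F - 1) / 2, by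
      have := Q.mod; omega⟩
    rw [hk, Nat.mul_div_cancel_left _ (by norm_num : 0 < 2)]
    ring
  · rw [Set.disjoint_left]
    rintro y (hy | hy) ⟨h1, h2⟩
    · exact hab ((show y • a = a from hy).symm.trans h1)
    · exact hab (h2.symm.trans (show y • b = b from hy))

end fix2

section free

variable {x a s : PSL F} (T : Tor a s ((Fintype.card F + 1) / 2))
include Q T

theorem solv_norm : Group.IsSolvable
    (Subgroup.normalizer (Subgroup.zpowers a : Set (PSL F))) := by
  have h1 : R a s := by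
    apply R_inv
    rw [T.s_inv, T.inv]
  have hle : Subgroup.normalizer (Subgroup.zpowers a : Set (PSL F)) ≤
      Subgroup.closure ({a, s} : Set (PSL F)) := by
    intro g hg
    have h2 : Subgroup.zpowers a ≤ Subgroup.closure ({a, s} : Set (PSL F)) := by
      rw [Subgroup.zpowers_le]; exact left_mem a s
    rcases (T.mem_normalizer_iff (two_le_m Q)).1 hg with h | h
    · exact h2 h
    · have : g = g * s * s := by rw [mul_assoc, T.ss, mul_one]
      rw [this]
      exact mul_mem (h2 h) (right_mem a s)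
  haveI : Group.IsSolvable (Subgroup.closure ({a, s} : Set (PSL F))) := h1
  exact Group.isSolvable_of_isSolvable_injective (Subgroup.inclusion_injective hle)

theorem sol_set_free (hx : x ∈ Subgroup.zpowers a) (hxx : x * x ≠ 1) (y : PSL F) :
    R x y ↔ y ∈ Subgroup.normalizer (Subgroup.zpowers a : Set (PSL F)) := by
  constructor
  · intro h
    exact sol_free Q T hx hxx h (left_mem x y) (right_mem x y)
  · intro h
    exact R_of_mem (solv_norm Q T) (Subgroup.le_normalizer hx) h

theorem card_sol_free (hx : x ∈ Subgroup.zpowers a) (hxx : x * x ≠ 1) :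
    Nat.card {y : PSL F // R x y} = Fintype.card F + 1 := by
  haveI := finite_psl F
  have h1 : Nat.card {y : PSL F // R x y} =
      Nat.card (Subgroup.normalizer (Subgroup.zpowers a : Set (PSL F))) := by
    apply Nat.card_congr
    exact Equiv.subtypeEquivRight (sol_set_free Q T hx hxx)
  rw [h1, T.card_normalizer (two_le_m Q)]
  have := Q.mod
  omega

end free

section three

/-- the involutions `w` with `⟨x, w⟩ ≅ A₄` -/
def Ix (x : PSL F) : Set (PSL F) := {w | w ≠ 1 ∧ w * w = 1 ∧ (x * w) ^ 3 = 1}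

/-- the matrices with trace zero -/
def Z (t : F) (ht : t ≠ 0) (α : F) : SpecialLinearGroup (Fin 2) F :=
  mk α (-(α * α + 1) * t) t⁻¹ (-α) (by field_simp; ring)

theorem Z_sq (t : F) (ht : t ≠ 0) (α : F) :
    (QuotientGroup.mk (Z t ht α) : PSL F) * QuotientGroup.mk (Z t ht α) = 1 := by
  rw [← QuotientGroup.mk_mul]
  have : (1 : PSL F) = QuotientGroup.mk 1 := rfl
  rw [this]
  apply mk_neg
  · rw [mul00]; simp [Z]; field_simp; ring
  · rw [mul01]; simp [Z]; ring
  · rw [mul10]; simp [Z]; ring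
  · rw [mul11]; simp [Z]; field_simp; ring

theorem Z_cube (t : F) (ht : t ≠ 0) (α : F) :
    ((QuotientGroup.mk (up t) : PSL F) * QuotientGroup.mk (Z t ht α)) ^ 3 = 1 := by
  have hti : t * t⁻¹ = 1 := mul_inv_cancel₀ ht
  obtain ⟨B, hB⟩ : ∃ B : SpecialLinearGroup (Fin 2) F,
      B = mk (α + 1) (-(α * α + 1 + α) * t) t⁻¹ (-α) (by linear_combination (α * α + 1 + α) * hti) :=
    ⟨_, rfl⟩
  obtain ⟨C, hC⟩ : ∃ C : SpecialLinearGroup (Fin 2) F,
      C = mk α (-(α * α + 1 + α) * t) t⁻¹ (-α - 1) (by linear_combination (α * α + 1 + α) * hti) :=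
    ⟨_, rfl⟩
  have h1 : up t * Z t ht α = B := by
    apply ext2
    · rw [mul00, hB]; simp [up, Z, ht]
    · rw [mul01, hB]; simp [up, Z]; ring
    · rw [mul10, hB]; simp [up, Z]
    · rw [mul11, hB]; simp [up, Z]
  have h2 : B * B = C := by
    apply ext2
    · rw [mul00, hB, hC]; simp only [mk00, mk01, mk10]; linear_combination (-(α * α + 1 + α)) * hti
    · rw [mul01, hB, hC]; simp only [mk00, mk01, mk11]; ring
    · rw [mul10, hB, hC]; simp only [mk00, mk10, mk11]; ring
    · rw [mul11, hB, hC]; simp only [mk01, mk10, mk11]; linear_combination (-(α * α + 1 + α)) * hti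
  rw [← QuotientGroup.mk_mul, h1, pow_three, ← QuotientGroup.mk_mul, ← QuotientGroup.mk_mul, h2]
  have : (1 : PSL F) = QuotientGroup.mk 1 := rfl
  rw [this]
  apply mk_neg
  · rw [mul00, hB, hC]; simp; linear_combination (-(α * α + 1 + α)) * hti
  · rw [mul01, hB, hC]; simp; ring
  · rw [mul10, hB, hC]; simp; ring
  · rw [mul11, hB, hC]; simp; linear_combination (-(α * α + 1 + α)) * hti

theorem Z_mem (t : F) (ht : t ≠ 0) (α : F) :
    (QuotientGroup.mk (Z t ht α) : PSL F) ∈ Ix (QuotientGroup.mk (up t) : PSL F) := by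
  refine ⟨?_, Z_sq t ht α, Z_cube t ht α⟩
  intro h
  have h1 : (QuotientGroup.mk (Z t ht α) : PSL F) • (∞ : OnePoint F) = ∞ := by rw [h, one_smul]
  rw [mk_smul, smul_infty'] at h1
  have h2 : (Z t ht α) 1 0 ≠ 0 := by
    show t⁻¹ ≠ 0
    exact inv_ne_zero ht
  rw [if_neg h2] at h1
  exact OnePoint.coe_ne_infty _ h1

include Q

theorem Z_surj (t : F) (ht : t ≠ 0) {w : PSL F} (hw : w ∈ Ix (QuotientGroup.mk (up t) : PSL F)) :
    ∃ α : F, w = QuotientGroup.mk (Z t ht α) := by
  obtain ⟨hw1, hww, hcube⟩ := hw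
  have hfree := free_of_ord_two Q hw1 hww
  obtain ⟨B, rfl⟩ := QuotientGroup.mk_surjective w
  have hd := det_eq B
  set α := B 0 0 with hα
  set β := B 0 1 with hβ
  set γ := B 1 0 with hγ
  set δ := B 1 1 with hδ
  have hγ0 : γ ≠ 0 := by
    intro h
    apply hfree ∞
    rw [mk_smul, smul_infty', if_pos h]
  -- the trace is zero
  have hδα : δ = -α := by
    have h1 : (QuotientGroup.mk (B * B) : PSL F) = QuotientGroup.mk 1 := hww
    have h2 : (B * B) 1 0 = 0 := by
      rcases eq_or_neg h1 with h | h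
      · rw [h]; simp
      · rw [h.2.2.1]; simp
    rw [mul10] at h2
    have h3 : γ * (α + δ) = 0 := by rw [← h2]; ring
    rcases mul_eq_zero.1 h3 with h | h
    · exact absurd h hγ0
    · linear_combination h
  rw [hδα] at hd
  have hτ : (t * γ) * (t * γ) = 1 := by
    rw [← QuotientGroup.mk_mul, pow_three, ← QuotientGroup.mk_mul, ← QuotientGroup.mk_mul] at hcube
    have h1 : (QuotientGroup.mk (up t * B * (up t * B * (up t * B))) : PSL F) = QuotientGroup.mk 1 :=
      hcube
    have h2 : (up t * B * (up t * B * (up t * B))) 1 0 = 0 := by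
      rcases eq_or_neg h1 with h | h
      · rw [h]; simp
      · rw [h.2.2.1]; simp
    have e00 : (up t * B) 0 0 = α + t * γ := by
      rw [mul00]; simp [up]; rfl
    have e01 : (up t * B) 0 1 = β - t * α := by
      rw [mul01, ← hδ, hδα]; simp [up]; ring
    have e10 : (up t * B) 1 0 = γ := by
      rw [mul10]; simp [up]; rfl
    have e11 : (up t * B) 1 1 = -α := by
      rw [mul11, ← hδ, hδα]; simp [up]
    rw [mul10, mul00 (up t * B), mul10 (up t * B), e00, e01, e10, e11] at h2
    have h3 : γ * ((t * γ) * (t * γ) - 1) = 0 := by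
      linear_combination h2 + γ * hd
    rcases mul_eq_zero.1 h3 with h | h
    · exact absurd h hγ0
    · linear_combination h
  have hti : t * t⁻¹ = 1 := mul_inv_cancel₀ ht
  rcases mul_self_eq_one_iff.1 hτ with h | h
  · have hγt : γ = t⁻¹ := by
      calc γ = t⁻¹ * (t * γ) := by field_simp
        _ = t⁻¹ := by rw [h, mul_one]
    refine ⟨α, ?_⟩
    congr 1
    apply ext2
    · rfl
    · show β = -(α * α + 1) * t
      rw [hγt] at hd
      linear_combination (-t) * hd - β * hti
    · exact hγt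
    · exact hδα
  · have hγt : γ = -t⁻¹ := by
      calc γ = t⁻¹ * (t * γ) := by field_simp
        _ = -t⁻¹ := by rw [h]; ring
    refine ⟨-α, ?_⟩
    apply mk_neg
    · show α = - -α
      ring
    · show β = -(-((-α) * (-α) + 1) * t)
      rw [hγt] at hd
      linear_combination t * hd - β * hti
    · show γ = - t⁻¹
      exact hγt
    · show δ = - - -α
      rw [hδα]; ring

theorem two_ne : (2 : F) ≠ 0 := by
  intro h
  have h3 := Q.three
  have : (1 : F) = 0 := by linear_combination h3 - h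
  exact one_ne_zero this

theorem Z_inj (t : F) (ht : t ≠ 0) {α β : F}
    (h : (QuotientGroup.mk (Z t ht α) : PSL F) = QuotientGroup.mk (Z t ht β)) : α = β := by
  rcases eq_or_neg h with h | h
  · have : (Z t ht α) 0 0 = (Z t ht β) 0 0 := by rw [h]
    exact this
  · exfalso
    have h1 : t⁻¹ = - t⁻¹ := h.2.2.1
    have h2 : 2 * t⁻¹ = 0 := by linear_combination h1
    rcases mul_eq_zero.1 h2 with h | h
    · exact two_ne Q h
    · exact inv_ne_zero ht h

theorem card_Ix_up (t : F) (ht : t ≠ 0) :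
    (Ix (QuotientGroup.mk (up t) : PSL F)).ncard = Fintype.card F := by
  have h1 : Ix (QuotientGroup.mk (up t) : PSL F) =
      Set.range (fun α : F => (QuotientGroup.mk (Z t ht α) : PSL F)) := by
    ext w
    constructor
    · intro hw
      obtain ⟨α, rfl⟩ := Z_surj Q t ht hw
      exact ⟨α, rfl⟩
    · rintro ⟨α, rfl⟩
      exact Z_mem t ht α
  rw [h1, Set.ncard_eq_toFinset_card', Set.toFinset_range]
  rw [Finset.card_image_of_injective]
  · rfl
  · intro α β h
    exact Z_inj Q t ht h

theorem card_Ix {x : PSL F} {a : OnePoint F} (hx : Fix1 x a) : (Ix x).ncard = Fintype.card F := by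
  obtain ⟨g, hg⟩ := exists_smul_infty a
  have h1 := fix1_conj hx g⁻¹
  rw [← hg, inv_smul_smul, inv_inv] at h1
  obtain ⟨t, ht, hxt⟩ := exists_up h1
  rw [← card_Ix_up Q t ht, ← hxt]
  have h2 : Ix (g⁻¹ * x * g) = (fun w => g⁻¹ * w * g) '' Ix x := by
    ext w
    constructor
    · rintro ⟨h3, h4, h5⟩
      refine ⟨g * w * g⁻¹, ⟨?_, ?_, ?_⟩, ?_⟩
      · intro h
        apply h3
        calc w = g⁻¹ * (g * w * g⁻¹) * g := by group
          _ = 1 := by rw [h]; group
      · calc g * w * g⁻¹ * (g * w * g⁻¹) = g * (w * w) * g⁻¹ := by group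
          _ = 1 := by rw [h4]; group
      · calc (x * (g * w * g⁻¹)) ^ 3 = g * (g⁻¹ * x * g * w) ^ 3 * g⁻¹ := by
              simp only [pow_succ, pow_zero, one_mul]; group
          _ = 1 := by rw [h5]; group
      · show g⁻¹ * (g * w * g⁻¹) * g = w
        group
    · rintro ⟨v, ⟨h3, h4, h5⟩, rfl⟩
      refine ⟨?_, ?_, ?_⟩
      · intro h
        apply h3
        calc v = g * (g⁻¹ * v * g) * g⁻¹ := by group
          _ = 1 := by
            show g * (g⁻¹ * v * g) * g⁻¹ = 1
            rw [show g⁻¹ * v * g = 1 from h]; group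
      · show g⁻¹ * v * g * (g⁻¹ * v * g) = 1
        calc g⁻¹ * v * g * (g⁻¹ * v * g) = g⁻¹ * (v * v) * g := by group
          _ = 1 := by rw [h4]; group
      · show (g⁻¹ * x * g * (g⁻¹ * v * g)) ^ 3 = 1
        calc (g⁻¹ * x * g * (g⁻¹ * v * g)) ^ 3 = g⁻¹ * (x * v) ^ 3 * g := by
              simp only [pow_succ, pow_zero, one_mul]; group
          _ = 1 := by rw [h5]; group
  rw [h2, Set.ncard_image_of_injective]
  intro u v huv
  exact mul_left_cancel (mul_right_cancel huv)

theorem sol_set_fix1 {x : PSL F} {a : OnePoint F} (hx : Fix1 x a) :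
    {y : PSL F | R x y} = (stabilizer (PSL F) a : Set (PSL F)) ∪
      ((Ix x ∪ (fun w => x * w) '' Ix x) ∪ (fun w => x ^ 2 * w) '' Ix x) := by
  have hx3 : x ^ 3 = 1 := fix1_cube Q.three hx
  ext y
  constructor
  · intro h
    by_cases hy : y • a = a
    · exact Or.inl hy
    · right
      obtain ⟨i, w, hi, hw1, hww, hw3, hyw⟩ := sol_fix1 Q hx h (left_mem x y) (right_mem x y) hy
      have hw : w ∈ Ix x := ⟨hw1, hww, hw3⟩
      interval_cases i
      · rw [pow_zero, one_mul] at hyw
        rw [hyw]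
        exact Or.inl (Or.inl hw)
      · rw [pow_one] at hyw
        exact Or.inl (Or.inr ⟨w, hw, hyw.symm⟩)
      · exact Or.inr ⟨w, hw, hyw.symm⟩
  · have key : ∀ w ∈ Ix x, R x w := fun w hw => R_of_cube hx3 hw.2.1 hw.2.2
    rintro (h | (h | ⟨w, h, rfl⟩) | ⟨w, h, rfl⟩)
    · exact R_of_mem (K := stabilizer (PSL F) a) (solv_one a) ((hx a).2 rfl) h
    · exact key y h
    · exact R_of_mem (key w h) (left_mem x w) (mul_mem (left_mem x w) (right_mem x w))
    · exact R_of_mem (key w h) (left_mem x w) (mul_mem (pow_mem (left_mem x w) 2) (right_mem x w))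

theorem card_sol_fix1 {x : PSL F} {a : OnePoint F} (hx : Fix1 x a) :
    2 * Nat.card {y : PSL F // R x y} = Fintype.card F * (Fintype.card F + 5) := by
  haveI := finite_psl F
  have hx3 : x ^ 3 = 1 := fix1_cube Q.three hx
  have hxa := (hx a).2 rfl
  have hcI := card_Ix Q hx
  have h1 : Nat.card {y : PSL F // R x y} = Set.ncard {y : PSL F | R x y} := rfl
  -- `x` is not a product of two elements of `Ix x`
  have hno : ∀ w ∈ Ix x, ∀ v ∈ Ix x, w ≠ x * v := by
    rintro w hw v hv h
    have h2 : w ^ 3 = 1 := by rw [h]; exact hv.2.2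
    apply hw.1
    calc w = w ^ 3 * (w * w)⁻¹ := by simp only [pow_succ, pow_zero, one_mul]; group
      _ = 1 := by rw [h2, hw.2.1]; group
  have hd1 : Disjoint (Ix x) ((fun w => x * w) '' Ix x) := by
    rw [Set.disjoint_left]
    rintro w hw ⟨v, hv, h⟩
    exact hno w hw v hv h.symm
  have hd2 : Disjoint (Ix x ∪ (fun w => x * w) '' Ix x) ((fun w => x ^ 2 * w) '' Ix x) := by
    rw [Set.disjoint_left]
    rintro w (hw | ⟨u, hu, hw⟩) ⟨v, hv, h⟩
    · apply hno v hv w hw
      rw [← h]
      show v = x * (x ^ 2 * v)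
      calc v = x ^ 3 * v := by rw [hx3, one_mul]
        _ = x * (x ^ 2 * v) := by simp only [pow_succ, pow_zero, one_mul]; group
    · apply hno u hu v hv
      have h5 : x * u = x ^ 2 * v := hw.trans h.symm
      calc u = x⁻¹ * (x * u) := by group
        _ = x * v := by rw [h5]; simp only [pow_succ, pow_zero, one_mul]; group
  have hfreeI : ∀ w ∈ Ix x, w • a ≠ a := fun w hw => free_of_ord_two Q hw.1 hw.2.1 a
  have hd3 : Disjoint (stabilizer (PSL F) a : Set (PSL F))
      ((Ix x ∪ (fun w => x * w) '' Ix x) ∪ (fun w => x ^ 2 * w) '' Ix x) := by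
    rw [Set.disjoint_left]
    have hmem : x ∈ stabilizer (PSL F) a := hxa
    rintro w hw ((hw' | ⟨u, hu, rfl⟩) | ⟨u, hu, rfl⟩)
    · exact hfreeI w hw' hw
    · apply hfreeI u hu
      have : u ∈ stabilizer (PSL F) a := by
        have h5 := mul_mem (inv_mem hmem) (show x * u ∈ stabilizer (PSL F) a from hw)
        rwa [inv_mul_cancel_left] at h5
      exact this
    · apply hfreeI u hu
      have : u ∈ stabilizer (PSL F) a := by
        have h5 := mul_mem (inv_mem (pow_mem hmem 2)) (show x ^ 2 * u ∈ stabilizer (PSL F) a from hw)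
        rwa [inv_mul_cancel_left] at h5
      exact this
  rw [h1, sol_set_fix1 Q hx, Set.ncard_union_eq hd3 (Set.toFinite _) (Set.toFinite _),
    Set.ncard_union_eq hd2 (Set.toFinite _) (Set.toFinite _),
    Set.ncard_union_eq hd1 (Set.toFinite _) (Set.toFinite _),
    Set.ncard_image_of_injective _ (mul_right_injective x),
    Set.ncard_image_of_injective _ (mul_right_injective (x ^ 2)), hcI]
  have h5 : (stabilizer (PSL F) a : Set (PSL F)).ncard = Fintype.card F * ((Fintype.card F - 1) / 2) :=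
    card_stabilizer Q.hO a
  rw [h5]
  obtain ⟨k, hk⟩ : ∃ k, Fintype.card F = 2 * k + 1 := ⟨(Fintype.card F - 1) / 2, by
    have := Q.mod; omega⟩
  rw [hk]
  have e : (2 * k + 1 - 1) / 2 = k := by omega
  rw [e]
  ring

end three

end Cfsg.Agent.H560.Sol3
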