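import Cfsg.Agent.H560.Sol3C
import Cfsg.Agent.Involutions.PairCount

/-!
# `PSL(2, q)`, `q ≡ 3 mod 8` a power of three: the solubilizer of an involution
-/

set_option autoImplicit false
set_option linter.unusedSectionVars false
set_option linter.style.haveILetI false

namespace Cfsg.Agent.H560.Sol3

open Matrix OnePoint MulAction
open Cfsg.Agent.OddCyclic.Zass
open Cfsg.Agent.H102.PslAct
open Cfsg.Agent.H102.RankOneSol (Free Fix1 Fix2 exists_normal_abelian)

attribute [local instance] act

variable {F : Type*} [Field F] [DecidableEq F] [Fintype F] (Q : Q3 F)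

/-- involutions -/
def PI (y : PSL F) : Prop := y ≠ 1 ∧ y * y = 1
/-- elements with one fixed point -/
def PU (y : PSL F) : Prop := ∃ a : OnePoint F, Fix1 y a
/-- elements with two fixed points -/
def PP (y : PSL F) : Prop := ∃ a b : OnePoint F, a ≠ b ∧ Fix2 y a b
/-- other elements without fixed points -/
def PM (y : PSL F) : Prop := Free (OnePoint F) y ∧ y * y ≠ 1

include Q

theorem conj_inv {z z' : PSL F} (h : PI z) (h' : PI z') : ∃ g : PSL F, g * z * g⁻¹ = z' := by
  obtain ⟨a, s, T⟩ := exists_tor Q.hO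
  obtain ⟨y, hy⟩ := T.exists_conj Q.hO (free_of_ord_two Q h.1 h.2)
  obtain ⟨y', hy'⟩ := T.exists_conj Q.hO (free_of_ord_two Q h'.1 h'.2)
  have key : ∀ (z y : PSL F), PI z → y⁻¹ * z * y ≠ 1 ∧ (y⁻¹ * z * y) * (y⁻¹ * z * y) = 1 := by
    intro z y h
    constructor
    · intro h1
      apply h.1
      calc z = y * (y⁻¹ * z * y) * y⁻¹ := by group
        _ = 1 := by rw [h1]; group
    · calc (y⁻¹ * z * y) * (y⁻¹ * z * y) = y⁻¹ * (z * z) * y := by group
        _ = 1 := by rw [h.2]; group
  have h1 := tor_inv Q T hy hy' (key z y h).1 (key z' y' h').1 (key z y h).2 (key z' y' h').2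
  refine ⟨y' * y⁻¹, ?_⟩
  calc y' * y⁻¹ * z * (y' * y⁻¹)⁻¹ = y' * (y⁻¹ * z * y) * y'⁻¹ := by group
    _ = z' := by rw [h1]; group

theorem card_cent_inv {z : PSL F} (h : PI z) :
    Nat.card (Subgroup.centralizer ({z} : Set (PSL F))) = Fintype.card F + 1 := by
  haveI := finite_psl F
  obtain ⟨a, s, T, hza⟩ := exists_tor_of_free Q.hO (free_of_ord_two Q h.1 h.2)
  have h1 : Subgroup.centralizer ({z} : Set (PSL F)) =
      Subgroup.normalizer (Subgroup.zpowers a : Set (PSL F)) := by
    ext g
    rw [Subgroup.mem_centralizer_singleton_iff]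
    exact inv_comm_iff Q T hza h.1 h.2
  rw [h1, T.card_normalizer (two_le_m Q)]
  have := Q.mod
  omega

theorem exists_inv' {a s : PSL F} (T : Tor a s ((Fintype.card F + 1) / 2)) :
    ∃ z ∈ Subgroup.zpowers a, PI z := by
  haveI := finite_psl F
  have h2 : 2 ∣ Nat.card (Subgroup.zpowers a) := by
    rw [Nat.card_zpowers, T.ord]
    have := Q.m_mod
    omega
  haveI : Fact (Nat.Prime 2) := ⟨Nat.prime_two⟩
  obtain ⟨x, hx⟩ := exists_prime_orderOf_dvd_card' 2 h2
  refine ⟨x, x.2, ?_, ?_⟩
  · intro h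
    have : x = 1 := Subtype.ext h
    rw [this, orderOf_one] at hx
    omega
  · have := pow_orderOf_eq_one x
    rw [hx, sq] at this
    exact congrArg Subtype.val this

theorem exists_inv : ∃ z : PSL F, PI z := by
  obtain ⟨a, s, T⟩ := exists_tor Q.hO
  obtain ⟨z, -, hz⟩ := exists_inv' Q T
  exact ⟨z, hz⟩

theorem card_PI : Nat.card {z : PSL F // PI z} * (Fintype.card F + 1) = Nat.card (PSL F) := by
  haveI := finite_psl F
  obtain ⟨z, hz⟩ := exists_inv Q
  have h1 := Cfsg.Agent.Involutions.PairCount.card_class_mul_card_centralizer z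
  rw [card_cent_inv Q hz] at h1
  rw [← h1]
  congr 1
  apply Nat.card_congr
  apply Equiv.subtypeEquivRight
  intro u
  rw [isConj_iff]
  constructor
  · intro hu
    exact conj_inv Q hz hu
  · rintro ⟨g, rfl⟩
    constructor
    · intro h
      apply hz.1
      calc z = g⁻¹ * (g * z * g⁻¹) * g := by group
        _ = 1 := by rw [h]; group
    · calc (g * z * g⁻¹) * (g * z * g⁻¹) = g * (z * z) * g⁻¹ := by group
        _ = 1 := by rw [hz.2]; group

theorem types (y : PSL F) : y = 1 ∧ ¬ PI y ∧ ¬ PU y ∧ ¬ PP y ∧ ¬ PM y ∨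
    y ≠ 1 ∧ PI y ∧ ¬ PU y ∧ ¬ PP y ∧ ¬ PM y ∨ y ≠ 1 ∧ ¬ PI y ∧ PU y ∧ ¬ PP y ∧ ¬ PM y ∨
    y ≠ 1 ∧ ¬ PI y ∧ ¬ PU y ∧ PP y ∧ ¬ PM y ∨ y ≠ 1 ∧ ¬ PI y ∧ ¬ PU y ∧ ¬ PP y ∧ PM y := by
  have h1U : PU y → y ≠ 1 := fun ⟨a, h⟩ => fix1_ne_one h
  have h1P : PP y → y ≠ 1 := fun ⟨a, b, _, h⟩ => fix2_ne_one h (by have := Q.gt; omega)
  have hIF : PI y → Free (OnePoint F) y := fun h => free_of_ord_two Q h.1 h.2
  have hUF : PU y → ¬ Free (OnePoint F) y := fun ⟨a, h⟩ h' => h' a ((h a).2 rfl)
  have hPF : PP y → ¬ Free (OnePoint F) y := fun ⟨a, b, _, h⟩ h' => h' a ((h a).2 (Or.inl rfl))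
  have hUP : PU y → ¬ PP y := by
    rintro ⟨a, h⟩ ⟨b, c, hbc, h'⟩
    have e1 := (h b).1 ((h' b).2 (Or.inl rfl))
    have e2 := (h c).1 ((h' c).2 (Or.inr rfl))
    exact hbc (e1.trans e2.symm)
  have hMF : PM y → Free (OnePoint F) y := fun h => h.1
  by_cases h1 : y = 1
  · left
    refine ⟨h1, fun h => h.1 h1, fun h => h1U h h1, fun h => h1P h h1, fun h => h.2 ?_⟩
    rw [h1, one_mul]
  · right
    rcases fix_cases h1 with h | h | h
    · by_cases h2 : y * y = 1
      · left
        exact ⟨h1, ⟨h1, h2⟩, fun h' => hUF h' h, fun h' => hPF h' h, fun h' => h'.2 h2⟩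
      · right; right; right
        exact ⟨h1, fun h' => h2 h'.2, fun h' => hUF h' h, fun h' => hPF h' h, ⟨h, h2⟩⟩
    · right; left
      exact ⟨h1, fun h' => hUF h (hIF h'), h, hUP h, fun h' => hUF h (hMF h')⟩
    · right; right; left
      exact ⟨h1, fun h' => hPF h (hIF h'), fun h' => hUP h' h, h, fun h' => hPF h (hMF h')⟩

theorem sum_types [Fintype (PSL F)] (f : PSL F → ℕ) (f1 fI fU fP fM : ℕ) (h1 : f 1 = f1)
    (hI : ∀ y, PI y → f y = fI) (hU : ∀ y, PU y → f y = fU) (hP : ∀ y, PP y → f y = fP)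
    (hM : ∀ y, PM y → f y = fM) :
    ∑ y : PSL F, f y = f1 + Nat.card {y : PSL F // PI y} * fI + Nat.card {y : PSL F // PU y} * fU +
      Nat.card {y : PSL F // PP y} * fP + Nat.card {y : PSL F // PM y} * fM := by
  classical
  have h : ∀ y : PSL F, f y = (if y = 1 then f1 else 0) + (if PI y then fI else 0) +
      (if PU y then fU else 0) + (if PP y then fP else 0) + (if PM y then fM else 0) := by
    intro y
    rcases types Q y with ⟨a, b, c, d, e⟩ | ⟨a, b, c, d, e⟩ | ⟨a, b, c, d, e⟩ | ⟨a, b, c, d, e⟩ |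
      ⟨a, b, c, d, e⟩
    · rw [if_pos a, if_neg b, if_neg c, if_neg d, if_neg e, a, h1]; rfl
    · rw [if_neg a, if_pos b, if_neg c, if_neg d, if_neg e, hI y b]; omega
    · rw [if_neg a, if_neg b, if_pos c, if_neg d, if_neg e, hU y c]; omega
    · rw [if_neg a, if_neg b, if_neg c, if_pos d, if_neg e, hP y d]; omega
    · rw [if_neg a, if_neg b, if_neg c, if_neg d, if_pos e, hM y e]; omega
  have hs : ∀ (p : PSL F → Prop) [DecidablePred p] (k : ℕ), ∑ y : PSL F, (if p y then k else 0) =
      Nat.card {y : PSL F // p y} * k := by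
    intro p _ k
    rw [← Finset.sum_filter, Finset.sum_const, smul_eq_mul, Nat.card_eq_fintype_card,
      Fintype.card_subtype]
  simp_rw [h, Finset.sum_add_distrib, hs]
  congr 4
  rw [Nat.card_eq_fintype_card, Fintype.card_subtype_eq, one_mul]

omit Q in
/-- double counting -/
theorem dcount {α β : Type*} [Fintype α] [Fintype β] (r : α → β → Prop) :
    ∑ a : α, Nat.card {b : β // r a b} = ∑ b : β, Nat.card {a : α // r a b} := by
  rw [← Nat.card_sigma, ← Nat.card_sigma]
  apply Nat.card_congr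
  exact
    { toFun := fun u => ⟨u.2.1, ⟨u.1, u.2.2⟩⟩
      invFun := fun u => ⟨u.2.1, ⟨u.1, u.2.2⟩⟩
      left_inv := fun u => rfl
      right_inv := fun u => rfl }

/-- counting fixed points -/
theorem count_fix : (Fintype.card F + 1) + Nat.card {y : PSL F // PU y} +
    Nat.card {y : PSL F // PP y} * 2 = (Fintype.card F + 1) * (Fintype.card F * ((Fintype.card F - 1) / 2)) := by
  haveI := finite_psl F
  haveI := Fintype.ofFinite (PSL F)
  haveI := Fintype.ofFinite (OnePoint F)
  have h1 := dcount (fun (y : PSL F) (a : OnePoint F) => y • a = a)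
  have h2 : ∀ a : OnePoint F, Nat.card {y : PSL F // y • a = a} =
      Fintype.card F * ((Fintype.card F - 1) / 2) := fun a => card_stabilizer Q.hO a
  rw [Finset.sum_congr rfl (fun a _ => h2 a), Finset.sum_const, Finset.card_univ,
    ← Nat.card_eq_fintype_card, card_onePoint, smul_eq_mul] at h1
  have hfree : ∀ y : PSL F, Free (OnePoint F) y → Nat.card {a : OnePoint F // y • a = a} = 0 := by
    intro y hy
    haveI : IsEmpty {a : OnePoint F // y • a = a} := ⟨fun u => hy u.1 u.2⟩
    exact Nat.card_of_isEmpty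
  rw [← h1, sum_types Q (fun y => Nat.card {a : OnePoint F // y • a = a}) (Fintype.card F + 1) 0 1 2 0]
  · ring
  · rw [← card_onePoint]
    apply Nat.card_congr
    exact Equiv.subtypeUnivEquiv (fun a => one_smul _ _)
  · intro y hy
    exact hfree y (free_of_ord_two Q hy.1 hy.2)
  · rintro y ⟨a, ha⟩
    show Nat.card {b : OnePoint F // y • b = b} = 1
    rw [Nat.card_congr (Equiv.subtypeEquivRight ha)]
    exact Nat.card_unique
  · rintro y ⟨a, b, hab, ha⟩
    show Nat.card {b : OnePoint F // y • b = b} = 2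
    rw [Nat.card_congr (Equiv.subtypeEquivRight ha)]
    have : Nat.card {c : OnePoint F // c = a ∨ c = b} = ({a, b} : Set (OnePoint F)).ncard := rfl
    rw [this, Set.ncard_pair hab]
  · intro y hy
    exact hfree y hy.1

theorem count_all : 1 + Nat.card {y : PSL F // PI y} + Nat.card {y : PSL F // PU y} +
    Nat.card {y : PSL F // PP y} + Nat.card {y : PSL F // PM y} = Nat.card (PSL F) := by
  haveI := finite_psl F
  haveI := Fintype.ofFinite (PSL F)
  have h1 := sum_types Q (fun _ : PSL F => 1) 1 1 1 1 1 rfl (fun _ _ => rfl) (fun _ _ => rfl)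
    (fun _ _ => rfl) (fun _ _ => rfl)
  rw [Finset.sum_const, Finset.card_univ, ← Nat.card_eq_fintype_card, smul_eq_mul, mul_one] at h1
  rw [h1]
  ring

theorem count_free : Nat.card {y : PSL F // PI y} + Nat.card {y : PSL F // PM y} =
    Nat.card {g : PSL F // ∀ x : OnePoint F, g • x ≠ x} := by
  haveI := finite_psl F
  haveI := Fintype.ofFinite (PSL F)
  classical
  have h1 := sum_types Q (fun y : PSL F => if Free (OnePoint F) y then 1 else 0) 0 1 0 0 1
    (by
      apply if_neg
      intro h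
      exact h ∞ (one_smul _ _))
    (fun y hy => if_pos (free_of_ord_two Q hy.1 hy.2))
    (by
      rintro y ⟨a, ha⟩
      apply if_neg
      intro h
      exact h a ((ha a).2 rfl))
    (by
      rintro y ⟨a, b, _, ha⟩
      apply if_neg
      intro h
      exact h a ((ha a).2 (Or.inl rfl)))
    (fun y hy => if_pos hy.1)
  rw [Finset.sum_boole] at h1
  have h2 : Nat.card {g : PSL F // ∀ x : OnePoint F, g • x ≠ x} =
      (Finset.univ.filter (fun y : PSL F => Free (OnePoint F) y)).card := by
    show Nat.card {g : PSL F // Free (OnePoint F) g} = _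
    rw [Nat.card_eq_fintype_card, Fintype.card_subtype]
  rw [h2]
  have h3 : (((Finset.univ.filter (fun y : PSL F => Free (OnePoint F) y)).card : ℕ)) =
    0 + Nat.card {y : PSL F // PI y} * 1 + Nat.card {y : PSL F // PU y} * 0 +
      Nat.card {y : PSL F // PP y} * 0 + Nat.card {y : PSL F // PM y} * 1 := by
    rw [← h1]
    simp
  rw [h3]
  ring

/-- the involutions `z` with `⟨z, y⟩` solvable -/
theorem inv_PU {y : PSL F} (hy : PU y) :
    Nat.card {z : {z : PSL F // PI z} // R z.1 y} = Fintype.card F := by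
  obtain ⟨a, ha⟩ := hy
  rw [← card_Ix Q ha]
  have hy3 : y ^ 3 = 1 := fix1_cube Q.three ha
  have hy1 : y ≠ 1 := fix1_ne_one ha
  apply Nat.card_congr
  have key : ∀ z : PSL F, PI z → (R z y ↔ z ∈ Ix y) := by
    intro z hz
    have hzf := free_of_ord_two Q hz.1 hz.2
    have hcube : ∀ g : PSL F, g ^ 3 = 1 → g * g = 1 → g = 1 := by
      intro g h1 h2
      calc g = g ^ 3 * (g * g)⁻¹ := by simp only [pow_succ, pow_zero, one_mul]; group
        _ = 1 := by rw [h1, h2]; group
    constructor
    · intro h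
      obtain ⟨i, w, hi, hw1, hww, hw3, hzw⟩ := sol_fix1 Q ha (R_symm h) (left_mem y z)
        (right_mem y z) (hzf a)
      interval_cases i
      · rw [pow_zero, one_mul] at hzw
        rw [hzw]
        exact ⟨hw1, hww, hw3⟩
      · exfalso
        rw [pow_one] at hzw
        apply hz.1
        rw [hzw]
        exact hcube _ hw3 (by rw [← hzw]; exact hz.2)
      · exfalso
        have h1 : z = y⁻¹ * w := by
          rw [hzw]
          calc y ^ 2 * w = y⁻¹ * (y ^ 3 * w) := by simp only [pow_succ, pow_zero, one_mul]; group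
            _ = y⁻¹ * w := by rw [hy3, one_mul]
        have hwi : w⁻¹ = w := inv_eq_of_mul_eq_one_left hww
        have h2 : (y * w) * (y * w) = 1 := by
          have h3 : (z * z)⁻¹ = 1 := by rw [hz.2]; group
          calc (y * w) * (y * w) = y * ((y⁻¹ * w⁻¹⁻¹) * (y⁻¹ * w⁻¹⁻¹))⁻¹ * y⁻¹ * (y * w * w * y⁻¹) := by
                have e : w⁻¹⁻¹ = w := inv_inv w
                rw [e]
                have e2 : w * y * (w * y) = (w⁻¹ * y) * (w⁻¹ * y) := by rw [hwi]
                calc (y * w) * (y * w) = y * (w * y * (w * y)) * y⁻¹ := by group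
                  _ = y * ((w⁻¹ * y) * (w⁻¹ * y)) * y⁻¹ := by rw [e2]
                  _ = y * ((w⁻¹ * y) * (w⁻¹ * y)) * y⁻¹ * 1 := by rw [mul_one]
                  _ = y * ((w⁻¹ * y) * (w⁻¹ * y)) * y⁻¹ * (y * (w * w) * y⁻¹) := by
                      rw [hww]; group
                  _ = _ := by group
            _ = y * (z * z)⁻¹ * y⁻¹ * (y * (w * w) * y⁻¹) := by rw [inv_inv, ← h1]; group
            _ = 1 := by rw [h3, hww]; group
        have h4 := hcube _ hw3 h2
        have h5 : w = y⁻¹ := by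
          calc w = y⁻¹ * (y * w) := by group
            _ = y⁻¹ := by rw [h4, mul_one]
        rw [h5] at hww
        apply hy1
        apply hcube y hy3
        calc y * y = (y⁻¹ * y⁻¹)⁻¹ := by rw [_root_.mul_inv_rev, inv_inv]
          _ = 1 := by rw [hww]; group
    · intro h
      exact R_symm (R_of_cube hy3 h.2.1 h.2.2)
  exact
    { toFun := fun u => ⟨u.1.1, (key u.1.1 u.1.2).1 u.2⟩
      invFun := fun w => ⟨⟨w.1, w.2.1, w.2.2.1⟩, (key w.1 ⟨w.2.1, w.2.2.1⟩).2 w.2⟩
      left_inv := fun u => rfl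
      right_inv := fun u => rfl }

theorem inv_PP {y : PSL F} (hy : PP y) :
    Nat.card {z : {z : PSL F // PI z} // R z.1 y} = (Fintype.card F - 1) / 2 := by
  obtain ⟨a, b, hab, hya⟩ := hy
  rw [← card_swap Q hab]
  apply Nat.card_congr
  have key : ∀ z : PSL F, PI z → (R z y ↔ (z • a = b ∧ z • b = a)) := by
    intro z hz
    have hzf := free_of_ord_two Q hz.1 hz.2
    have h1 : R z y ↔ z ∈ {z : PSL F | R y z} := ⟨fun h => R_symm h, fun h => R_symm h⟩
    rw [h1, sol_set_fix2 Q hab hya]
    constructor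
    · rintro ((h | h) | h)
      · exact absurd h (hzf a)
      · exact absurd h (hzf b)
      · exact h
    · intro h
      exact Or.inr h
  exact
    { toFun := fun u => ⟨u.1.1, (key u.1.1 u.1.2).1 u.2⟩
      invFun := fun w => ⟨⟨w.1, by
          constructor
          · intro h
            apply hab
            have := w.2.1
            rwa [h, one_smul] at this
          · exact swap_sq hab w.2.1 w.2.2⟩, (key w.1 (by
          constructor
          · intro h
            apply hab
            have := w.2.1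
            rwa [h, one_smul] at this
          · exact swap_sq hab w.2.1 w.2.2)).2 w.2⟩
      left_inv := fun u => rfl
      right_inv := fun u => rfl }

theorem inv_PM {y : PSL F} (hy : PM y) :
    Nat.card {z : {z : PSL F // PI z} // R z.1 y} = (Fintype.card F + 1) / 2 + 1 := by
  haveI := finite_psl F
  obtain ⟨hyf, hyy⟩ := hy
  obtain ⟨a, s, T, hya⟩ := exists_tor_of_free Q.hO hyf
  obtain ⟨z0, hz0T, hz0⟩ := exists_inv' Q T
  have h1 : Nat.card {z : {z : PSL F // PI z} // R z.1 y} =
      Set.ncard {z : PSL F | PI z ∧ z ∈ Subgroup.normalizer (Subgroup.zpowers a : Set (PSL F))} := by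
    have key : ∀ z : PSL F, (R z y ↔ z ∈ Subgroup.normalizer (Subgroup.zpowers a : Set (PSL F))) := by
      intro z
      rw [← sol_set_free Q T hya hyy z]
      exact ⟨fun h => R_symm h, fun h => R_symm h⟩
    apply Nat.card_congr
    exact
      { toFun := fun u => ⟨u.1.1, u.1.2, (key u.1.1).1 u.2⟩
        invFun := fun w => ⟨⟨w.1, w.2.1⟩, (key w.1).2 w.2.2⟩
        left_inv := fun u => rfl
        right_inv := fun u => rfl }
  have h2 : {z : PSL F | PI z ∧ z ∈ Subgroup.normalizer (Subgroup.zpowers a : Set (PSL F))} =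
      ((Subgroup.normalizer (Subgroup.zpowers a : Set (PSL F)) : Set (PSL F)) \
        (Subgroup.zpowers a : Set (PSL F))) ∪ {z0} := by
    ext z
    constructor
    · rintro ⟨h3, h4⟩
      by_cases h5 : z ∈ Subgroup.zpowers a
      · right
        exact tor_inv Q T h5 hz0T h3.1 hz0.1 h3.2 hz0.2
      · exact Or.inl ⟨h4, h5⟩
    · rintro (⟨h3, h4⟩ | h3)
      · refine ⟨⟨?_, (tor_out T (two_le_m Q) h3 h4).1⟩, h3⟩
        rintro rfl
        exact h4 (one_mem _)
      · have h3 : z = z0 := h3
        rw [h3]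
        exact ⟨hz0, Subgroup.le_normalizer hz0T⟩
  rw [h1, h2, Set.ncard_union_eq _ (Set.toFinite _) (Set.toFinite _), Set.ncard_singleton]
  · congr 1
    have h3 := Set.ncard_sdiff_add_ncard_of_subset
      (s := (Subgroup.zpowers a : Set (PSL F)))
      (t := (Subgroup.normalizer (Subgroup.zpowers a : Set (PSL F)) : Set (PSL F)))
      (fun g hg => Subgroup.le_normalizer hg) (Set.toFinite _)
    have h4 : (Subgroup.zpowers a : Set (PSL F)).ncard = (Fintype.card F + 1) / 2 := by
      have : (Subgroup.zpowers a : Set (PSL F)).ncard = Nat.card (Subgroup.zpowers a) := rfl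
      rw [this, Nat.card_zpowers, T.ord]
    have h5 : (Subgroup.normalizer (Subgroup.zpowers a : Set (PSL F)) : Set (PSL F)).ncard =
        2 * ((Fintype.card F + 1) / 2) := T.card_normalizer (two_le_m Q)
    rw [h4, h5] at h3
    omega
  · rw [Set.disjoint_singleton_right]
    rintro ⟨-, h⟩
    exact h hz0T

theorem card_sol_inv {x : PSL F} (hx : PI x) :
    Nat.card {y : PSL F // R x y} = Fintype.card F * (Fintype.card F + 1) := by
  haveI := finite_psl F
  haveI := Fintype.ofFinite (PSL F)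
  haveI := Fintype.ofFinite {z : PSL F // PI z}
  have hconst : ∀ z : {z : PSL F // PI z}, Nat.card {y : PSL F // R z.1 y} =
      Nat.card {y : PSL F // R x y} := by
    intro z
    obtain ⟨g, hg⟩ := conj_inv Q z.2 hx
    apply Nat.card_congr
    apply (MulAut.conj g).toEquiv.subtypeEquiv
    intro y
    show R z.1 y ↔ R x (g * y * g⁻¹)
    have key : ∀ (g u v : PSL F), R u v → R (g * u * g⁻¹) (g * v * g⁻¹) := by
      intro g u v h
      have h1 : Group.IsSolvable ((Subgroup.closure ({u, v} : Set (PSL F))).map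
          (MulAut.conj g).toMonoidHom) := by
        haveI : Group.IsSolvable (Subgroup.closure ({u, v} : Set (PSL F))) := h
        exact Group.isSolvable_of_surjective (MonoidHom.subgroupMap_surjective _ _)
      exact R_of_mem h1 ⟨u, left_mem u v, rfl⟩ ⟨v, right_mem u v, rfl⟩
    constructor
    · intro h
      rw [← hg]
      exact key g _ _ h
    · intro h
      rw [← hg] at h
      have h2 := key g⁻¹ _ _ h
      have e : ∀ u : PSL F, g⁻¹ * (g * u * g⁻¹) * g⁻¹⁻¹ = u := fun u => by group
      rwa [e, e] at h2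
  have h1 := dcount (fun (z : {z : PSL F // PI z}) (y : PSL F) => R z.1 y)
  rw [Finset.sum_congr rfl (fun z _ => hconst z), Finset.sum_const, Finset.card_univ,
    ← Nat.card_eq_fintype_card, smul_eq_mul,
    sum_types Q (fun y => Nat.card {z : {z : PSL F // PI z} // R z.1 y})
      (Nat.card {z : PSL F // PI z}) (Nat.card {z : PSL F // PI z}) (Fintype.card F)
      ((Fintype.card F - 1) / 2) ((Fintype.card F + 1) / 2 + 1)
      (by
        apply Nat.card_congr
        apply Equiv.subtypeUnivEquiv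
        intro z
        exact R_of_sq z.2.2 (one_mul _))
      (fun y hy => by
        apply Nat.card_congr
        apply Equiv.subtypeUnivEquiv
        intro z
        exact R_of_sq z.2.2 hy.2)
      (fun y hy => inv_PU Q hy) (fun y hy => inv_PP Q hy) (fun y hy => inv_PM Q hy)] at h1
  have h2 := count_fix Q
  have h3 := count_all Q
  have h4 := count_free Q
  have h5 := two_mul_card_free (F := F)
  have h6 := card_PI Q
  have h7 := Q.hO.card2
  have h8 := Q.gt
  rw [← h4] at h5
  obtain ⟨k, hk⟩ : ∃ k, Fintype.card F = 2 * (k + 1) + 1 := ⟨(Fintype.card F - 1) / 2 - 1, by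
    have := Q.mod; omega⟩
  rw [hk] at h1 h2 h5 h6 h7 ⊢
  have e1 : (2 * (k + 1) + 1 - 1) / 2 = k + 1 := by omega
  have e2 : (2 * (k + 1) + 1 + 1) / 2 = k + 2 := by omega
  have e3 : 2 * (k + 1) + 1 - 1 = 2 * (k + 1) := by omega
  rw [e1] at h1 h2 h7
  rw [e2] at h1
  rw [e3] at h5
  generalize Nat.card {y : PSL F // PI y} = nI at *
  generalize Nat.card {y : PSL F // PU y} = nU at *
  generalize Nat.card {y : PSL F // PP y} = nP at *
  generalize Nat.card {y : PSL F // PM y} = nM at *
  generalize Nat.card {y : PSL F // R x y} = c at *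
  generalize Nat.card (PSL F) = N at *
  subst h7
  have hnI : nI = (k + 1) * (2 * (k + 1) + 1) := by
    have : nI * (2 * (k + 1) + 1 + 1) = (k + 1) * (2 * (k + 1) + 1) * (2 * (k + 1) + 1 + 1) := by
      rw [h6]; ring
    exact Nat.eq_of_mul_eq_mul_right (by omega) this
  have hnM : nM = (k + 1) * (2 * (k + 1) + 1) * k := by
    nlinarith
  have hnP : nP = (k + 2) * (2 * (k + 1) + 1) * k := by
    nlinarith
  have hnU : nU = 4 * (k + 1) * (k + 2) := by
    nlinarith
  have hpos : 0 < nI := by rw [hnI]; positivity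
  apply Nat.eq_of_mul_eq_mul_left hpos
  rw [h1, hnM, hnP, hnU, hnI]
  ring

end Cfsg.Agent.H560.Sol3
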