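import Cfsg.Agent.H412.Tc.HeisDefs

/-!
# Flags in groups of Heisenberg type (helper560, for S3621)

A flag is a subgroup `T ≤ B` fixing a nonzero vector and equal, up to scalars, to its double centralizer in `B`.
-/

set_option autoImplicit false

namespace Cfsg.Agent.H560.TcFlag

open Cfsg.Agent.H412.Tc

variable {K V : Type*} [Field K] [AddCommGroup V] [Module K V]

/-- `b ∈ C_B(T)` -/
def Cen (B T : Subgroup (GV V)) (b : GV V) : Prop := b ∈ B ∧ ∀ t ∈ T, b * t = t * b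

/-- `b ∈ Z T` -/
def ZT (K : Type*) {V : Type*} [Field K] [AddCommGroup V] [Module K V] (T : Subgroup (GV V)) (b : GV V) : Prop :=
  ∃ t ∈ T, ∃ c : Kˣ, b = scal K V c * t

structure Flag (K : Type*) {V : Type*} [Field K] [AddCommGroup V] [Module K V] (B T : Subgroup (GV V)) : Prop where
  le : T ≤ B
  fix : ∃ v : V, v ≠ 0 ∧ ∀ t ∈ T, t • v = v
  dc : ∀ b ∈ B, (∀ c, Cen B T c → b * c = c * b) → ZT K T b

/-- A generic fixed vector of the flag `T`. -/
def Gen (K : Type*) {V : Type*} [Field K] [AddCommGroup V] [Module K V] (B T : Subgroup (GV V)) (p : V) : Prop :=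
  p ≠ 0 ∧ (∀ t ∈ T, t • p = p) ∧ ∀ b ∈ B, Eig K b p → ZT K T b

theorem Cen.mul {B T : Subgroup (GV V)} {a b : GV V} (ha : Cen B T a) (hb : Cen B T b) : Cen B T (a * b) :=
  ⟨B.mul_mem ha.1 hb.1, fun t ht => by rw [mul_assoc, hb.2 t ht, ← mul_assoc, ha.2 t ht, mul_assoc]⟩

theorem Cen.inv {B T : Subgroup (GV V)} {a : GV V} (ha : Cen B T a) : Cen B T a⁻¹ :=
  ⟨B.inv_mem ha.1, fun t ht => by
    have h : Commute a t := ha.2 t ht
    exact h.inv_left.eq⟩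

theorem Cen.pow {B T : Subgroup (GV V)} {a : GV V} (ha : Cen B T a) (n : ℕ) : Cen B T (a ^ n) :=
  ⟨B.pow_mem ha.1 n, fun t ht => by
    have h : Commute a t := ha.2 t ht
    exact (h.pow_left n).eq⟩

theorem Cen.scal {r : ℕ} {B T : Subgroup (GV V)} (hB : Heis K V r B) (hT : T ≤ B) (c : Kˣ) :
    Cen B T (Cfsg.Agent.H412.Tc.scal K V c) :=
  ⟨hB.scal_mem c, fun t ht => ((hB.linb (hT ht)).scal_comm c).symm⟩

/-- `T⟨y⟩` for `y` commuting with `T` -/
def ext (T : Subgroup (GV V)) (y : GV V) (h : ∀ t ∈ T, y * t = t * y) : Subgroup (GV V) where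
  carrier := {g | ∃ t ∈ T, ∃ i : ℤ, g = t * y ^ i}
  mul_mem' := by
    rintro _ _ ⟨t, ht, i, rfl⟩ ⟨s, hs, j, rfl⟩
    refine ⟨t * s, T.mul_mem ht hs, i + j, ?_⟩
    have h1 : Commute y s := h s hs
    have h2 : y ^ i * s = s * y ^ i := (h1.zpow_left i).eq
    rw [zpow_add]
    calc t * y ^ i * (s * y ^ j) = t * (y ^ i * s) * y ^ j := by simp only [mul_assoc]
      _ = _ := by rw [h2]; simp only [mul_assoc]
  one_mem' := ⟨1, T.one_mem, 0, by simp⟩
  inv_mem' := by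
    rintro _ ⟨t, ht, i, rfl⟩
    refine ⟨t⁻¹, T.inv_mem ht, -i, ?_⟩
    have h1 : Commute y t := h t ht
    have h2 : Commute (y ^ i)⁻¹ t⁻¹ := ((h1.zpow_left i).inv_left).inv_right
    rw [mul_inv_rev, zpow_neg, h2.eq]

section ext

variable {T : Subgroup (GV V)} {y : GV V} {h : ∀ t ∈ T, y * t = t * y}

theorem mem_ext {g : GV V} : g ∈ ext T y h ↔ ∃ t ∈ T, ∃ i : ℤ, g = t * y ^ i := Iff.rfl

theorem le_ext : T ≤ ext T y h := fun t ht => ⟨t, ht, 0, by simp⟩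

theorem y_mem_ext : y ∈ ext T y h := ⟨1, T.one_mem, 1, by simp⟩

theorem ext_fix {p : V} (hT : ∀ t ∈ T, t • p = p) (hy : y • p = p) : ∀ t ∈ ext T y h, t • p = p := by
  rintro _ ⟨t, ht, i, rfl⟩
  have h1 : y ^ i • p = p := by
    have : y ∈ MulAction.stabilizer (GV V) p := hy
    exact (MulAction.stabilizer (GV V) p).zpow_mem this i
  rw [mul_smul, h1, hT t ht]

theorem ext_le {B : Subgroup (GV V)} (hT : T ≤ B) (hy : y ∈ B) : ext T y h ≤ B := by
  rintro _ ⟨t, ht, i, rfl⟩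
  exact B.mul_mem (hT ht) (B.zpow_mem hy i)

theorem cen_ext_iff {B : Subgroup (GV V)} {b : GV V} :
    Cen B (ext T y h) b ↔ Cen B T b ∧ b * y = y * b := by
  constructor
  · rintro ⟨h1, h2⟩
    exact ⟨⟨h1, fun t ht => h2 t (le_ext ht)⟩, h2 y y_mem_ext⟩
  · rintro ⟨⟨h1, h2⟩, h3⟩
    refine ⟨h1, ?_⟩
    rintro _ ⟨t, ht, i, rfl⟩
    have h4 : Commute b t := h2 t ht
    have h5 : Commute b y := h3
    exact (h4.mul_right (h5.zpow_right i)).eq

theorem card_lt_ext [Finite (GV V)] (hny : y ∉ T) : Nat.card T < Nat.card (ext T y h) := by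
  have h1 : T < ext T y h := lt_of_le_of_ne le_ext fun he => hny (he ▸ y_mem_ext)
  exact Set.ncard_lt_ncard (SetLike.coe_ssubset_coe.mpr h1) (Set.toFinite _)

end ext

section main

variable {r : ℕ} {B T : Subgroup (GV V)} (hB : Heis K V r B)

include hB

/-- The trivial flag. -/
theorem flag_bot [Nontrivial V] : Flag K B ⊥ where
  le := bot_le
  fix := by
    obtain ⟨v, hv⟩ := exists_ne (0 : V)
    exact ⟨v, hv, fun t ht => by rw [Subgroup.mem_bot.mp ht, one_smul]⟩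
  dc := by
    intro b hb h
    obtain ⟨c, hc⟩ := hB.cent b hb fun a ha => h a ⟨ha, fun t ht => by
      rw [Subgroup.mem_bot.mp ht, one_mul, mul_one]⟩
    exact ⟨1, Subgroup.one_mem _, c, by rw [hc, mul_one]⟩

/-- An element with an eigenvector fixed by `T` centralizes `T`. -/
theorem cen_of_eig (hT : T ≤ B) {b : GV V} (hb : b ∈ B) {v : V} (hv : v ≠ 0) (hTv : ∀ t ∈ T, t • v = v)
    (he : Eig K b v) : Cen B T b :=
  ⟨hb, fun t ht => hB.commute_of_eig hb (hT ht) hv he ⟨1, by rw [hTv t ht, Units.val_one, one_smul]⟩⟩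

/-- `y ∈ B` outside `Z T` does not commute with `C_B(T)`; the commutator can be prescribed. -/
theorem exists_z [Nontrivial V] (hT : Flag K B T) {y : GV V} (hy : y ∈ B) (hny : ¬ ZT K T y) {ω : Kˣ}
    (hω : ω ^ r = 1) : ∃ z, Cen B T z ∧ CC ω y z := by
  have h1 : ∃ z, Cen B T z ∧ y * z ≠ z * y := by
    by_contra hcon
    push Not at hcon
    exact hny (hT.dc y hy hcon)
  obtain ⟨z, hz, hne⟩ := h1
  obtain ⟨c, hc⟩ := hB.cc hy hz.1
  have hc1 : c ≠ 1 := by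
    rintro rfl
    exact hne (cc_one_iff.1 hc)
  obtain ⟨i, -, hi⟩ := exists_pow_eq hB.prime hc1 (hB.cc_pow hy hz.1 hc) hω
  exact ⟨z ^ i, hz.pow i, hi ▸ hc.pow_right (hB.linb hz.1) i⟩

/-- Extension of a flag. -/
theorem Flag.ext_step [Nontrivial V] (hT : Flag K B T) {y : GV V} (hy : Cen B T y) (hny : ¬ ZT K T y) {p : V}
    (hp : p ≠ 0) (hTp : ∀ t ∈ T, t • p = p) (hyp : y • p = p) {ω : Kˣ} (hω1 : ω ≠ 1) (hω : ω ^ r = 1) :
    Flag K B (ext T y hy.2) where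
  le := ext_le hT.le hy.1
  fix := ⟨p, hp, ext_fix hTp hyp⟩
  dc := by
    intro d hd hcen
    obtain ⟨z, hz, hyz⟩ := exists_z hB hT hy.1 hny hω
    -- make `d y^j` commute with `z`
    obtain ⟨c, hc⟩ := hB.cc hd hz.1
    obtain ⟨j, -, hj⟩ := exists_pow_eq hB.prime hω1 hω (ζ := c⁻¹) (by rw [inv_pow, hB.cc_pow hd hz.1 hc, inv_one])
    have h1 : CC (1 : Kˣ) (d * y ^ j) z := by
      have h2 := hc.mul_left (hB.linb hd) (hyz.pow_left (hB.linb hy.1) j)
      rwa [hj, mul_inv_cancel] at h2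
    rw [cc_one_iff] at h1
    have h3 : ZT K T (d * y ^ j) := by
      refine hT.dc _ (B.mul_mem hd (B.pow_mem hy.1 j)) fun b hb => ?_
      -- `b z^k` centralizes `T'`
      obtain ⟨e, he⟩ := hB.cc hy.1 hb.1
      obtain ⟨k, -, hk⟩ := exists_pow_eq hB.prime hω1 hω (ζ := e⁻¹)
        (by rw [inv_pow, hB.cc_pow hy.1 hb.1 he, inv_one])
      have h4 : CC (1 : Kˣ) y (b * z ^ k) := by
        have h5 := he.mul_right (hB.linb hb.1) (hyz.pow_right (hB.linb hz.1) k)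
        rwa [hk, mul_inv_cancel] at h5
      rw [cc_one_iff] at h4
      have h6 : Cen B (ext T y hy.2) (b * z ^ k) := cen_ext_iff.2 ⟨hb.mul (hz.pow k), h4.symm⟩
      have h7 : Commute d (b * z ^ k) := hcen _ h6
      have h8 : Commute y (b * z ^ k) := h4
      have h9 : Commute (d * y ^ j) (b * z ^ k) := h7.mul_left (h8.pow_left j)
      have h10 : Commute (d * y ^ j) (z ^ k) := Commute.pow_right h1 k
      have h11 : Commute (d * y ^ j) (b * z ^ k * (z ^ k)⁻¹) := h9.mul_right h10.inv_right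
      rw [mul_inv_cancel_right] at h11
      exact h11.eq
    obtain ⟨t, ht, c', hc'⟩ := h3
    refine ⟨t * y ^ (-(j : ℤ)), ⟨t, ht, _, rfl⟩, c', ?_⟩
    rw [← mul_assoc, ← hc', zpow_neg, zpow_natCast, mul_inv_cancel_right]

/-- Some root of unity times `y` fixes a nonzero vector fixed by `T`. -/
theorem exists_scaled (hTB : T ≤ B) {v : V} (hv : v ≠ 0) (hTv : ∀ t ∈ T, t • v = v) {y : GV V}
    (hy : Cen B T y) (hyr : y ^ r = 1) {ω : Kˣ} (hω1 : ω ≠ 1) (hω : ω ^ r = 1) :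
    ∃ ζ : Kˣ, ζ ^ r = 1 ∧ ∃ p : V, p ≠ 0 ∧ (∀ t ∈ T, t • p = p) ∧ (scal K V ζ * y) • p = p := by
  obtain ⟨i, -, hi⟩ := exists_Pr_ne (primitive hB.prime hω1 hω) hB.prime.one_lt
    (prime_ne_zero hB.prime hω1 hω) y hv
  have hωi : (ω ^ i) ^ r = 1 := by rw [← pow_mul, mul_comm, pow_mul, hω, one_pow]
  refine ⟨(ω ^ i)⁻¹, by rw [inv_pow, hωi, inv_one], Pr r y (ω ^ i) v, hi, ?_, ?_⟩
  · intro t ht
    rw [Pr_comm (hB.linb (hTB ht)) (hy.2 t ht).symm, hTv t ht]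
  · rw [mul_smul, Pr_mem (hB.linb hy.1) hyr hωi, scal_smul, smul_smul, ← Units.val_mul, inv_mul_cancel,
      Units.val_one, one_smul]

omit hB in
theorem ZT.of_scal {y : GV V} {c : Kˣ} (h : ZT K T (scal K V c * y)) : ZT K T y := by
  obtain ⟨t, ht, d, hd⟩ := h
  refine ⟨t, ht, c⁻¹ * d, ?_⟩
  rw [map_mul, mul_assoc, ← hd, ← mul_assoc, ← map_mul, inv_mul_cancel, map_one, one_mul]

/-- If `C_B(T) ≤ Z T`, every `T`-fixed vector is generic. -/
theorem gen_of_max (hTB : T ≤ B) (hmax : ∀ b, Cen B T b → ZT K T b) {v : V} (hv : v ≠ 0)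
    (hTv : ∀ t ∈ T, t • v = v) : Gen K B T v :=
  ⟨hv, hTv, fun _ hb he => hmax _ (cen_of_eig hB hTB hb hv hTv he)⟩

end main

theorem Pr_add (r : ℕ) (y : GV V) (ζ : Kˣ) (u v : V) : Pr r y ζ (u + v) = Pr r y ζ u + Pr r y ζ v := by
  unfold Pr
  simp only [smul_add, Finset.sum_add_distrib]

theorem Pr_smul {r : ℕ} {y : GV V} (hy : Lin K y) (ζ : Kˣ) (c : K) (v : V) :
    Pr r y ζ (c • v) = c • Pr r y ζ v := by
  unfold Pr
  rw [Finset.smul_sum]
  refine Finset.sum_congr rfl fun j _ => ?_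
  rw [hy.pow j, smul_comm]

end Cfsg.Agent.H560.TcFlag
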