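import Cfsg.Agent.H560.TcFlag

/-!
# Good elements for odd `r` (helper560, for S3621)
-/

set_option autoImplicit false

namespace Cfsg.Agent.H560.TcFlagOdd

open Cfsg.Agent.H412.Tc Cfsg.Agent.H560.TcFlag

universe u

section

variable {K V : Type*} [Field K] [AddCommGroup V] [Module K V] [Finite V]
variable {r : ℕ} {B T : Subgroup (GV V)}

theorem finite_GV (V : Type*) [AddCommGroup V] [Finite V] : Finite (GV V) := by
  have : Finite (AddMonoid.End V) := Finite.of_injective (fun f : AddMonoid.End V => (f : V → V))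
    DFunLike.coe_injective
  exact Finite.of_injective (fun g : GV V => (g : AddMonoid.End V)) Units.val_injective

omit [Finite V] in
theorem scal_mul_pow {y : GV V} (hy : Lin K y) (c : Kˣ) (n : ℕ) :
    (scal K V c * y) ^ n = scal K V (c ^ n) * y ^ n := by
  have h : Commute (scal K V c) y := (hy.scal_comm c).symm
  rw [h.mul_pow, map_pow]

/-- The generic vector of `T` from one of `T⟨y⟩`, for `r` odd. -/
theorem gen_step [Nontrivial V] (hB : Heis K V r B) (hr : r ≠ 2) {ω : Kˣ} (hω1 : ω ≠ 1) (hω : ω ^ r = 1)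
    (hTB : T ≤ B) {y : GV V} (hy : Cen B T y) (hyr : y ^ r = 1) {z : GV V} (hz : Cen B T z)
    (hyz : CC ω y z) {p : V} (hp : Gen K B (ext T y hy.2) p) : Gen K B T (p + z • p) := by
  obtain ⟨hp0, hpT, hpg⟩ := hp
  have hT : ∀ t ∈ T, t • p = p := fun t ht => hpT t (le_ext ht)
  have hyp : y • p = p := hpT y y_mem_ext
  have hyl := hB.linb hy.1
  have hzl := hB.linb hz.1
  have hyzp : y • z • p = (ω : K) • z • p := by rw [hyz.smul, hyp]
  have hzp0 : z • p ≠ 0 := fun h => hp0 ((smul_eq_zero_iff_eq z).1 h)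
  have hr0 : (r : K) ≠ 0 := prime_ne_zero hB.prime hω1 hω
  have hyp' : y • p = ((1 : Kˣ) : K) • p := by rw [hyp, Units.val_one, one_smul]
  have h1r : (1 : Kˣ) ^ r = 1 := one_pow r
  -- the projections of `v`
  have hv1 : Pr r y (1 : Kˣ) (p + z • p) = (r : K) • p := by
    rw [Pr_add, Pr_eig_self hyl hyp', Pr_eig_ne hyl h1r hω hω1.symm hyzp, add_zero]
  have hvω : Pr r y ω (p + z • p) = (r : K) • z • p := by
    rw [Pr_add, Pr_eig_self hyl hyzp, Pr_eig_ne hyl hω h1r hω1 hyp', zero_add]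
  refine ⟨?_, ?_, ?_⟩
  · intro h
    rw [h] at hv1
    have h2 : Pr r y (1 : Kˣ) (0 : V) = 0 := by unfold Pr; simp
    rw [h2] at hv1
    rcases smul_eq_zero.1 hv1.symm with h3 | h3
    · exact hr0 h3
    · exact hp0 h3
  · intro t ht
    rw [smul_add, hT t ht, ← mul_smul, ← hz.2 t ht, mul_smul, hT t ht]
  · intro b hb he
    obtain ⟨l, hl⟩ := he
    have hbl := hB.linb hb
    obtain ⟨c, hc⟩ := hB.cc hy.1 hb
    have hcr : c ^ r = 1 := hB.cc_pow hy.1 hb hc
    have hb1 : y • b • p = (c : K) • b • p := by rw [hc.smul, hyp]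
    have hb2 : y • b • z • p = ((c * ω : Kˣ) : K) • b • z • p := by
      rw [hc.smul, hyzp, hbl, smul_smul, Units.val_mul]
    have hcωr : (c * ω) ^ r = 1 := by rw [mul_pow, hcr, hω, one_mul]
    have hv : b • (p + z • p) = b • p + b • z • p := smul_add _ _ _
    have e1 : Pr r y (1 : Kˣ) (b • p + b • z • p) = (l : K) • (r : K) • p := by
      rw [← hv, hl, Pr_smul hyl, hv1]
    have eω : Pr r y ω (b • p + b • z • p) = (l : K) • (r : K) • z • p := by
      rw [← hv, hl, Pr_smul hyl, hvω]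
    have hlr : (l : K) * (r : K) ≠ 0 := mul_ne_zero l.ne_zero hr0
    have hc1 : c = 1 := by
      by_contra hne
      -- the component for `1`
      have hcω : c * ω = 1 := by
        by_contra hne2
        rw [Pr_add, Pr_eig_ne hyl h1r hcr (fun h => hne h.symm) hb1,
          Pr_eig_ne hyl h1r hcωr (fun h => hne2 h.symm) hb2, add_zero, smul_smul] at e1
        rcases smul_eq_zero.1 e1.symm with h3 | h3
        · exact hlr h3
        · exact hp0 h3
      have hcω2 : c = ω := by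
        by_contra hne2
        rw [Pr_add, Pr_eig_ne hyl hω hcr (fun h => hne2 h.symm) hb1,
          Pr_eig_ne hyl hω hcωr (by rw [hcω]; exact hω1) hb2, add_zero, smul_smul] at eω
        rcases smul_eq_zero.1 eω.symm with h3 | h3
        · exact hlr h3
        · exact hzp0 h3
      rw [hcω2, ← pow_two] at hcω
      have h4 : orderOf ω ∣ 2 := orderOf_dvd_of_pow_eq_one hcω
      have h5 : orderOf ω ∣ r := orderOf_dvd_of_pow_eq_one hω
      have h6 : orderOf ω ∣ 1 := by
        have h7 : Nat.Coprime 2 r := (Nat.coprime_primes Nat.prime_two hB.prime).2 (Ne.symm hr)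
        rw [← h7]
        exact Nat.dvd_gcd h4 h5
      exact hω1 (orderOf_eq_one_iff.1 (Nat.dvd_one.1 h6))
    rw [hc1, Units.val_one, one_smul] at hb1
    rw [hc1, one_mul] at hb2
    have hb1' : y • b • p = ((1 : Kˣ) : K) • b • p := by rw [hb1, Units.val_one, one_smul]
    have hbp : b • p = (l : K) • p := by
      rw [Pr_add, Pr_eig_self hyl hb1', Pr_eig_ne hyl h1r hω hω1.symm hb2, add_zero, smul_comm (l : K) (r : K)] at e1
      exact smul_right_injective V hr0 e1
    have hbzp : b • z • p = (l : K) • z • p := by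
      rw [Pr_add, Pr_eig_self hyl hb2, Pr_eig_ne hyl hω h1r hω1 hb1', zero_add, smul_comm (l : K) (r : K)] at eω
      exact smul_right_injective V hr0 eω
    obtain ⟨t', ⟨t, ht, i, rfl⟩, e, hbe⟩ := hpg b hb ⟨l, hbp⟩
    have hyi : (y ^ i) • p = p := by
      have : y ∈ MulAction.stabilizer (GV V) p := hyp
      exact (MulAction.stabilizer (GV V) p).zpow_mem this i
    have hel : (e : K) = l := by
      have h7 : b • p = (e : K) • p := by
        rw [hbe, mul_smul, mul_smul, hyi, hT t ht, scal_smul]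
      rw [hbp] at h7
      exact (smul_left_injective K hp0 h7).symm
    -- `y^i` commutes with `z`, so it is trivial
    obtain ⟨n, hn, hyn⟩ : ∃ n < r, y ^ i = y ^ n := by
      have hrpos : 0 < r := hB.prime.pos
      refine ⟨(i % r).toNat, ?_, ?_⟩
      · have h8 := Int.emod_lt_of_pos i (by exact_mod_cast hrpos : (0 : ℤ) < r)
        have h9 := Int.emod_nonneg i (by exact_mod_cast hrpos.ne' : (r : ℤ) ≠ 0)
        omega
      · have h9 := Int.emod_nonneg i (by exact_mod_cast hrpos.ne' : (r : ℤ) ≠ 0)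
        rw [← zpow_natCast, Int.toNat_of_nonneg h9]
        conv_lhs => rw [← Int.mul_ediv_add_emod i r, zpow_add, zpow_mul, zpow_natCast, hyr, one_zpow, one_mul]
    have hn0 : n = 0 := by
      have h8 : (y ^ n) • z • p = ((ω ^ n : Kˣ) : K) • z • p := by
        rw [pow_smul_of_eig hyl hyzp, Units.val_pow_eq_pow_val]
      have h9 : b • z • p = ((e * ω ^ n : Kˣ) : K) • z • p := by
        rw [hbe, mul_smul, mul_smul, hyn, h8, hB.linb (hTB ht), ← mul_smul t, ← hz.2 t ht, mul_smul z, hT t ht,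
          scal_smul, smul_smul, Units.val_mul]
      rw [hbzp, ← hel] at h9
      have h10 := smul_left_injective K hzp0 h9
      rw [Units.val_mul] at h10
      have h11 : ((ω ^ n : Kˣ) : K) = 1 := by
        have h12 : (e : K) * 1 = (e : K) * ((ω ^ n : Kˣ) : K) := by rw [mul_one]; exact h10
        exact (mul_left_cancel₀ e.ne_zero h12).symm
      rw [Units.val_pow_eq_pow_val, (primitive hB.prime hω1 hω).pow_eq_one_iff_dvd] at h11
      by_contra hne
      exact absurd (Nat.le_of_dvd (Nat.pos_of_ne_zero hne) h11) (not_le.2 hn)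
    refine ⟨t, ht, e, ?_⟩
    rw [hbe, hyn, hn0, pow_zero, mul_one]

/-- Every flag has a generic vector (`r` odd). -/
theorem exists_gen [Nontrivial V] (hB : Heis K V r B) (hr : r ≠ 2)
    (hpow : ∀ b ∈ B, ∃ c : Kˣ, b ^ r = scal K V (c ^ r)) {ω : Kˣ} (hω1 : ω ≠ 1) (hω : ω ^ r = 1) (n : ℕ) :
    ∀ T : Subgroup (GV V), Flag K B T → Nat.card B ≤ Nat.card T + n → ∃ p, Gen K B T p := by
  have := finite_GV V
  induction n with
  | zero =>
    intro T hT hcard
    have h1 : T = B := Subgroup.eq_of_le_of_card_ge hT.le (by simpa using hcard)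
    obtain ⟨v, hv, hTv⟩ := hT.fix
    exact ⟨v, gen_of_max hB hT.le (fun b hb => ⟨b, h1 ▸ hb.1, 1, by rw [map_one, one_mul]⟩) hv hTv⟩
  | succ n ih =>
    intro T hT hcard
    by_cases hmax : ∀ b, Cen B T b → ZT K T b
    · obtain ⟨v, hv, hTv⟩ := hT.fix
      exact ⟨v, gen_of_max hB hT.le hmax hv hTv⟩
    push Not at hmax
    obtain ⟨y0, hy0, hny0⟩ := hmax
    obtain ⟨c, hc⟩ := hpow y0 hy0.1
    obtain ⟨v, hv, hTv⟩ := hT.fix
    -- normalize `y0`
    have hy1 : Cen B T (scal K V c⁻¹ * y0) := (Cen.scal hB hT.le _).mul hy0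
    have hy1r : (scal K V c⁻¹ * y0) ^ r = 1 := by
      rw [scal_mul_pow (hB.linb hy0.1), hc, ← map_mul, inv_pow, inv_mul_cancel, map_one]
    have hny1 : ¬ ZT K T (scal K V c⁻¹ * y0) := fun h => hny0 h.of_scal
    obtain ⟨ζ, hζ, p0, hp0, hTp0, hyp0⟩ := exists_scaled hB hT.le hv hTv hy1 hy1r hω1 hω
    set y := scal K V ζ * (scal K V c⁻¹ * y0) with hydef
    have hy : Cen B T y := (Cen.scal hB hT.le _).mul hy1
    have hyr : y ^ r = 1 := by
      rw [hydef, scal_mul_pow (hB.linb hy1.1), hζ, hy1r, map_one, one_mul]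
    have hny : ¬ ZT K T y := fun h => hny1 h.of_scal
    have hyT : y ∉ T := fun h => hny ⟨y, h, 1, by rw [map_one, one_mul]⟩
    have hF : Flag K B (ext T y hy.2) := Flag.ext_step hB hT hy hny hp0 hTp0 hyp0 hω1 hω
    obtain ⟨p, hp⟩ := ih _ hF (by
      have := card_lt_ext (h := hy.2) hyT
      omega)
    obtain ⟨z, hz, hyz⟩ := exists_z hB hT hy.1 hny hω
    exact ⟨_, gen_step hB hr hω1 hω hT.le hy hyr hz hyz hp⟩

end

variable {K V : Type u} [Field K] [Finite K] [AddCommGroup V] [Finite V] [Module K V]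
  {A B : Subgroup (GV V)} {r : ℕ}

theorem FlagOdd.main (S : SetB K V A B r) (hr : r ≠ 2)
    (hpow : ∀ b ∈ B, ∃ c : Kˣ, b ^ r = scal K V (c ^ r)) : ∃ x v, Good K r B x v := by
  have hnt : Nontrivial V := Finite.one_lt_card_iff_nontrivial.1 (by have := S.card; omega)
  have hB := S.heis
  obtain ⟨b0, hb0, hns0⟩ := S.ns
  obtain ⟨ω, hω1, hω⟩ := hB.exists_root hb0 hns0
  -- a nonscalar element of order `r` with a fixed vector
  have hbot := flag_bot hB
  have hcen : ∀ {b}, b ∈ B → Cen B ⊥ b := fun {b} hb =>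
    ⟨hb, fun t ht => by rw [Subgroup.mem_bot.mp ht, one_mul, mul_one]⟩
  have hzt : ∀ {b}, ZT K ⊥ b → ∃ c : Kˣ, b = scal K V c := by
    rintro b ⟨t, ht, c, hc⟩
    exact ⟨c, by rw [hc, Subgroup.mem_bot.mp ht, mul_one]⟩
  obtain ⟨c, hc⟩ := hpow b0 hb0
  have hx1 : scal K V c⁻¹ * b0 ∈ B := B.mul_mem (hB.scal_mem _) hb0
  have hx1r : (scal K V c⁻¹ * b0) ^ r = 1 := by
    rw [scal_mul_pow (hB.linb hb0), hc, ← map_mul, inv_pow, inv_mul_cancel, map_one]
  have hnx1 : ¬ ZT K ⊥ (scal K V c⁻¹ * b0) := fun h => by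
    obtain ⟨d, hd⟩ := hzt h.of_scal
    exact hns0 d hd
  obtain ⟨v, hv⟩ := exists_ne (0 : V)
  obtain ⟨ζ, hζ, p0, hp0, hTp0, hyp0⟩ := exists_scaled hB bot_le hv
    (fun t ht => by rw [Subgroup.mem_bot.mp ht, one_smul]) (hcen hx1) hx1r hω1 hω
  set x := scal K V ζ * (scal K V c⁻¹ * b0) with hxdef
  have hx : Cen B ⊥ x := hcen (B.mul_mem (hB.scal_mem _) hx1)
  have hxr : x ^ r = 1 := by
    rw [hxdef, scal_mul_pow (hB.linb hx1), hζ, hx1r, map_one, one_mul]
  have hnx : ¬ ZT K ⊥ x := fun h => hnx1 h.of_scal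
  have hF : Flag K B (ext ⊥ x hx.2) := Flag.ext_step hB hbot hx hnx hp0 hTp0 hyp0 hω1 hω
  obtain ⟨p, hp0', hpT, hpg⟩ := exists_gen hB hr hpow hω1 hω (Nat.card B) _ hF (Nat.le_add_left _ _)
  refine ⟨x, p, hx.1, hxr, fun d hd => hnx ⟨1, Subgroup.one_mem _, d, by rw [hd, mul_one]⟩, hp0', hpT x y_mem_ext,
    ?_⟩
  intro b hb he
  obtain ⟨t', ⟨t, ht, i, rfl⟩, e, hbe⟩ := hpg b hb he
  rw [Subgroup.mem_bot] at ht
  have hrpos : 0 < r := hB.prime.pos
  refine ⟨(i % r).toNat, e, ?_⟩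
  rw [hbe, ht, one_mul]
  congr 1
  have h9 := Int.emod_nonneg i (by exact_mod_cast hrpos.ne' : (r : ℤ) ≠ 0)
  rw [← zpow_natCast, Int.toNat_of_nonneg h9]
  conv_lhs => rw [← Int.mul_ediv_add_emod i r, zpow_add, zpow_mul, zpow_natCast, hxr, one_zpow, one_mul]

end Cfsg.Agent.H560.TcFlagOdd
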